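/- FB tower (S3404), job J6. -/
import Cfsg.Agent.H11.FBSpec

set_option autoImplicit false

namespace H41.FbJ6

open MulAction Subgroup H11.FB

universe u v

theorem eq_one_of_pgroup {G : Type u} [Group G] [Finite G] {O : Subgroup G} {p : ℕ} (hp : p.Prime)
    (hO : IsPGroup p O) {x : G} (hx : x ∈ O) (hc : (orderOf x).Coprime p) : x = 1 := by
  have : Fact p.Prime := ⟨hp⟩
  obtain ⟨n, hn⟩ := (IsPGroup.iff_orderOf.1 hO) ⟨x, hx⟩
  rw [← orderOf_coe] at hn
  have h1 : (orderOf x).Coprime (orderOf x) := by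
    have := hc.pow_right n
    rwa [← hn] at this
  exact orderOf_eq_one_iff.1 ((Nat.coprime_self _).1 h1)

theorem jobJ6 : JobJ6.{u, v} := by
  intro BU SV FI N3 B1 G Ω _ _ _ _ _ _ a b c d K H P h cx hh ho hθ hNo
  have hH1 : Nat.card H ≠ 1 := fun e => cx.hy.fr.Hne (card_eq_one.1 e)
  have hp : (orderOf h).Prime := ho ▸ Nat.minFac_prime hH1
  have th1 := cx.th1 h hh hp
  have th2 := cx.th2 h hh hp
  have perf := th2.perf (Or.inl hθ) (cx.fh.cen h hh ho)
  have LX : L4 G a b c d ≤ X3 G a b c := inf_le_left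
  have HX : H ≤ X3 G a b c := cx.hy.fr.Hle.trans LX
  have cN : Nat.card (normalizer (zpowers h : Set G) ⊓ X3 G a b c : Subgroup G) =
      3 * Nat.card H := by rw [th1.cardX, hθ]
  have hodd : ∀ X₁ : Subgroup G, X₁ ≤ X3 G a b c →
      Odd (Nat.card (X₁ ⊓ centralizer {h} : Subgroup G)) := by
    intro X₁ hle
    have le : (X₁ ⊓ centralizer {h} : Subgroup G) ≤
        normalizer (zpowers h : Set G) ⊓ X3 G a b c := by
      intro x hx
      refine ⟨mem_normalizer_fintype ?_, hle hx.1⟩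
      rintro _ ⟨k, rfl⟩
      have e : Commute x h := (mem_centralizer_singleton_iff.1 hx.2)
      have e2 := (e.zpow_right k).eq
      refine ⟨k, ?_⟩
      simp only [e2, mul_inv_cancel_right]
    have dv := card_dvd_of_le le
    rw [cN] at dv
    exact Odd.of_dvd_nat ((by decide : Odd 3).mul cx.odd) dv
  have fin : ∀ X₁, Cpl (X3 G a b c) X₁ (orderOf h) → ∃ O : Subgroup G, O ≤ X3 G a b c ∧
      IsPGroup 3 O ∧
      (∀ g : G, (∀ x ∈ X3 G a b c, g * x * g⁻¹ ∈ X3 G a b c) → ∀ x ∈ O, g * x * g⁻¹ ∈ O) ∧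
      ∀ x ∈ X3 G a b c, (∀ y ∈ O, x * y = y * x) → x ∈ O := fun X₁ cp =>
    FI (SV hp cp (HX hh) rfl (Or.inl (hodd X₁ cp.le))) fun p pp p3 => hNo p pp (Or.inl p3)
  by_cases r3 : orderOf h = 3
  · exfalso
    obtain ⟨X₁, cp⟩ := B1 cx hh r3 hθ
    obtain ⟨O, OX, O3, On, Oc⟩ := fin X₁ (r3 ▸ cp)
    refine cx.pd.ne (eq_bot_iff.2 fun x hx => ?_)
    have xX : x ∈ X3 G a b c := LX (cx.hy.fr.Kle (cx.pd.le hx))
    have : Fact (Nat.Prime 2) := ⟨Nat.prime_two⟩
    obtain ⟨n, hn⟩ := (IsPGroup.iff_orderOf.1 cx.pd.pg) ⟨x, hx⟩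
    rw [← orderOf_coe] at hn
    have c3 : (orderOf x).Coprime 3 := by
      have : orderOf x = 2 ^ n := hn
      rw [this]
      exact Nat.Coprime.pow_left n (by decide)
    have x1 : x ∈ X₁ := cp.all x xX c3
    have xO : x ∈ O := by
      refine Oc x xX fun y hy => ?_
      have m1 : x * y * x⁻¹ * y⁻¹ ∈ O := O.mul_mem
        (On x (fun z hz => mul_mem (mul_mem xX hz) (inv_mem xX)) y hy) (O.inv_mem hy)
      have m2 : x * y * x⁻¹ * y⁻¹ ∈ X₁ := by
        have := X₁.mul_mem x1 (cp.nm y (OX hy) _ (X₁.inv_mem x1))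
        simpa [mul_assoc] using this
      have e := eq_one_of_pgroup Nat.prime_three O3 m1
        (Nat.Coprime.coprime_dvd_left (orderOf_dvd_natCard X₁ m2) cp.cop)
      calc x * y = (x * y * x⁻¹ * y⁻¹) * (y * x) := by group
        _ = y * x := by rw [e, one_mul]
    exact mem_bot.2 (eq_one_of_pgroup Nat.prime_three O3 xO c3)
  · have : Fact (orderOf h).Prime := ⟨hp⟩
    have pz : IsPGroup (orderOf h) (zpowers (⟨h, hh⟩ : H)) :=
      IsPGroup.of_card (n := 1) (by rw [Nat.card_zpowers, ← orderOf_coe, pow_one])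
    obtain ⟨S, hS⟩ := pz.exists_le_sylow
    have RH : (S : Subgroup H).map H.subtype ≤ H := map_subtype_le _
    have Rp : IsPGroup (orderOf h) ((S : Subgroup H).map H.subtype) := S.isPGroup'.map _
    have r2 : orderOf h ≠ 2 := fun e => by
      have := orderOf_dvd_natCard H hh
      rw [e] at this
      exact (Nat.not_even_iff_odd.2 cx.odd) (even_iff_two_dvd.2 this)
    obtain ⟨X₁, cp⟩ := BU (X := X3 G a b c) hp r2 rfl
      (show h ∈ (S : Subgroup H).map H.subtype from ⟨⟨h, hh⟩, hS (mem_zpowers _), rfl⟩)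
      (RH.trans HX) Rp (cx.fh.cyc _ hp _ RH Rp) (fun g _ hg => perf g hg)
      ⟨3 * (S : Subgroup H).index, fun hd => by
        rcases (hp.dvd_mul).1 hd with e | e
        · exact r3 ((Nat.prime_dvd_prime_iff_eq hp Nat.prime_three).1 e)
        · exact S.not_dvd_index e, by
        rw [cN, card_map_of_injective H.subtype_injective, mul_assoc, index_mul_card]⟩
    obtain ⟨O, OX, O3, On, Oc⟩ := fin X₁ cp
    exact N3 cx hh hp r3 hθ OX O3 On Oc

end H41.FbJ6
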