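/- Tower IV (S3929), job Cond. -/
import Cfsg.Agent.H42.IVSpec

set_option autoImplicit false

namespace H41.IvCond

open Subgroup H42.IV

universe u

theorem step {T : Type u} [Group T] [Finite T] (f : T →* T) {K V : Subgroup T} (h1 : V ≤ K)
    (h2 : V ≤ f.ker) : Nat.card V * Nat.card (K.map f) ≤ Nat.card K := by
  have e := (f.comp K.subtype).ker.card_mul_index
  rw [index_ker, MonoidHom.range_comp, range_subtype] at e
  rw [← e]
  refine Nat.mul_le_mul_right _ ?_
  rw [← Nat.card_congr (subgroupOfEquivOfLe h1).toEquiv]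
  exact card_le_of_le fun x hx => h2 hx

theorem pow_le {T : Type u} [CommGroup T] [Finite T] (V : Subgroup T) (r : ℕ)
    (h : ∀ v ∈ V, v ^ 2 = 1 ∧ ∃ y, y ^ 2 ^ r = v) : Nat.card V ^ (r + 1) ≤ Nat.card T := by
  have key : ∀ i, i ≤ r + 1 →
      Nat.card V ^ i * Nat.card (powMonoidHom (2 ^ i) : T →* T).range ≤ Nat.card T := by
    intro i
    induction i with
    | zero => intro _; simp [card_le_card_group]
    | succ i ih =>
      intro hi
      have s := step (powMonoidHom 2 : T →* T) (K := (powMonoidHom (2 ^ i) : T →* T).range) (V := V)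
        (fun v hv => by
          obtain ⟨-, y, rfl⟩ := h v hv
          refine ⟨y ^ 2 ^ (r - i), ?_⟩
          rw [powMonoidHom_apply, ← pow_mul, ← pow_add, Nat.sub_add_cancel (by omega)])
        (fun v hv => (h v hv).1)
      have e : (powMonoidHom (2 ^ i) : T →* T).range.map (powMonoidHom 2) =
          (powMonoidHom (2 ^ (i + 1)) : T →* T).range := by
        rw [MonoidHom.map_range]
        congr 1
        ext x
        rw [MonoidHom.comp_apply, powMonoidHom_apply, powMonoidHom_apply, powMonoidHom_apply,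
          ← pow_mul, pow_succ]
      rw [e] at s
      refine le_trans ?_ (ih (by omega))
      rw [pow_succ, mul_assoc]
      exact Nat.mul_le_mul_left _ s
  exact le_trans (Nat.le_mul_of_pos_right _ Nat.card_pos) (key _ le_rfl)

theorem jobCond : JobCond.{u} := by
  intro P1 P _ _ A _ _ b h t κ hP bb ⟨f, hf⟩ ht hG r s hs s1
  have cm : ∀ x ∈ A, ∀ y ∈ A, x * y = y * x := fun x hx y hy =>
    congrArg Subtype.val (mul_comm' (⟨x, hx⟩ : A) ⟨y, hy⟩)
  have cj : ∀ x ∈ A, b * x * b⁻¹ ∈ A := fun x hx => Normal.conj_mem inferInstance x hx b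
  let T : Subgroup P :=
    { carrier := nrm A b
      one_mem' := ⟨1, A.one_mem, by simp⟩
      mul_mem' := by
        rintro _ _ ⟨x, hx, rfl⟩ ⟨y, hy, rfl⟩
        refine ⟨x * y, A.mul_mem hx hy, ?_⟩
        calc x * y * (b * (x * y) * b⁻¹) = x * (y * (b * x * b⁻¹)) * (b * y * b⁻¹) := by group
          _ = _ := by rw [cm y hy _ (cj x hx)]; group
      inv_mem' := by
        rintro _ ⟨x, hx, rfl⟩
        refine ⟨x⁻¹, A.inv_mem hx, ?_⟩
        rw [cm _ hx _ (cj x hx)]
        group }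
  have TA : T ≤ A := by
    rintro _ ⟨x, hx, rfl⟩
    exact A.mul_mem hx (cj x hx)
  have TC : T ≤ centralizer ({b} : Set P) := by
    rintro _ ⟨x, hx, rfl⟩
    rw [mem_centralizer_singleton_iff]
    have bi : b⁻¹ = b := inv_eq_of_mul_eq_one_right bb
    calc x * (b * x * b⁻¹) * b = (b * x * b⁻¹) * x * b := by rw [cm _ hx _ (cj x hx)]
      _ = b * (x * (b * x * b⁻¹)) := by rw [bi]; group
  have : IsMulCommutative T := ⟨⟨fun x y => Subtype.ext (cm _ (TA x.2) _ (TA y.2))⟩⟩
  letI : CommGroup T := { mul_comm := fun x y => Subtype.ext (cm _ (TA x.2) _ (TA y.2)) }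
  let V : Subgroup T :=
    { carrier := {v | v ^ 2 = 1 ∧ ∃ y, y ^ 2 ^ r = v}
      one_mem' := ⟨one_pow _, 1, one_pow _⟩
      mul_mem' := by
        rintro _ _ ⟨h1, x, rfl⟩ ⟨h2, y, rfl⟩
        exact ⟨by rw [mul_pow, h1, h2, one_mul], x * y, mul_pow _ _ _⟩
      inv_mem' := by
        rintro _ ⟨h1, x, rfl⟩
        exact ⟨by rw [inv_pow, h1, inv_one], x⁻¹, inv_pow _ _⟩ }
  have cV : Nat.card V = 2 ^ s := by
    rw [← hs, ← card_map_of_injective (f := T.subtype) T.subtype_injective, ← Nat.card_coe_set_eq]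
    refine Nat.card_congr (Equiv.setCongr ?_)
    ext v
    constructor
    · rintro ⟨w, ⟨h1, y, rfl⟩, rfl⟩
      exact ⟨congrArg Subtype.val h1, y.1, y.2, rfl⟩
    · rintro ⟨h1, y, hy, rfl⟩
      exact ⟨(⟨y, hy⟩ : T) ^ 2 ^ r, ⟨Subtype.ext h1, _, rfl⟩, rfl⟩
  have a1 := P1 T (Fin (2 * h)) (f.comp (inclusion TC)) V r s (hP.to_subgroup T)
    (fun v _ e => (inclusion_injective TC) (hf (by simpa using e))) cV (fun v hv => hv)
  have a2 := pow_le V r fun v hv => hv
  have cT : Nat.card T ≤ 2 ^ t := ht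
  rw [cV, ← pow_mul] at a2
  refine hG r s s1 (by simpa using a1) ?_
  rw [mul_comm]
  exact (Nat.pow_le_pow_iff_right one_lt_two).1 (a2.trans cT)

end H41.IvCond
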