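/- Three pieces of the class number tower: peeling a prime, alternating groups, top quotients. -/
import Cfsg.Agent.H68.KcSpec

set_option autoImplicit false

namespace H41.Kc
open H68.Kc Finset Equiv
open scoped Classical

section peel
variable {G : Type} [Group G] [Fintype G]

theorem jordan {p : ℕ} (hp : p.Prime) (g : G) : ∃ s u : G, s * u = u * s ∧ u * s = g ∧
    ¬ p ∣ orderOf s ∧ orderOf s ∣ orderOf g ∧ ∃ k, u ^ p ^ k = 1 := by
  obtain ⟨k, e, he, h⟩ := Nat.exists_eq_pow_mul_and_not_dvd (orderOf_pos g).ne' p hp.ne_one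
  have h1 := Nat.gcd_eq_gcd_ab (p ^ k) e
  rw [(Nat.Coprime.pow_left k (hp.coprime_iff_not_dvd.2 he) : Nat.gcd _ _ = 1)] at h1
  have h2 : ∀ a : ℤ, g ^ ((p ^ k * e : ℕ) * a) = 1 := fun a => by
    rw [zpow_mul, zpow_natCast, ← h, pow_orderOf_eq_one, one_zpow]
  refine ⟨g ^ ((p ^ k : ℕ) * (p ^ k).gcdA e), g ^ (e * (p ^ k).gcdB e), zpow_mul_comm _ _ _,
    by rw [← zpow_add, add_comm, ← h1]; simp, fun a => he (a.trans (orderOf_dvd_of_pow_eq_one ?_)),
    orderOf_dvd_of_mem_zpowers ⟨_, rfl⟩, k, ?_⟩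
  · rw [← zpow_natCast, ← zpow_mul, ← h2 ((p ^ k).gcdA e)]; congr 1; push_cast; ring
  · rw [← zpow_natCast, ← zpow_mul, ← h2 ((p ^ k).gcdB e)]; congr 1; push_cast; ring

/-- The classes of the products of `u` with smooth elements of its centraliser. -/
def Bs (m : ℕ) (u : G) : Set (ConjClasses G) :=
  {a | ∃ s, s * u = u * s ∧ Sm m s ∧ a = ConjClasses.mk (u * s)}

theorem Bs_conj {m : ℕ} {u : G} {a : ConjClasses G} (h : a ∈ Bs m u) (g : G) :
    a ∈ Bs m (g * u * g⁻¹) := by
  obtain ⟨s, h1, h2, rfl⟩ := h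
  refine ⟨g * s * g⁻¹, by simp only [conj_mul, h1], fun q a b => h2 q a ?_,
    ConjClasses.mk_eq_mk_iff_isConj.2 (isConj_iff.2 ⟨g, by rw [conj_mul]⟩)⟩
  rwa [← MulAut.conj_apply, MulEquiv.orderOf_eq] at b

theorem Bs_card (m : ℕ) (u : G) :
    (Bs m u).ncard ≤ kap m (Subgroup.centralizer ({u} : Set G)) := by
  let F : ConjClasses (Subgroup.centralizer ({u} : Set G)) → ConjClasses G := fun c =>
    ConjClasses.mk (u * (Function.surjInv ConjClasses.mk_surjective c).1)
  refine (Set.ncard_le_ncard ?_ (Set.toFinite _)).trans (Set.ncard_image_le (f := F))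
  rintro _ ⟨s, h1, h2, rfl⟩
  let s' : Subgroup.centralizer ({u} : Set G) := ⟨s, Subgroup.mem_centralizer_singleton_iff.2 h1⟩
  refine ⟨_, ⟨s', fun q a b => h2 q a (Subgroup.orderOf_coe s' ▸ b), rfl⟩, ?_⟩
  obtain ⟨c, hc⟩ := isConj_iff.1 (ConjClasses.mk_eq_mk_iff_isConj.1
    (Function.surjInv_eq ConjClasses.mk_surjective (ConjClasses.mk s')))
  refine ConjClasses.mk_eq_mk_iff_isConj.2 (isConj_iff.2 ⟨c, ?_⟩)
  have h3 := Subgroup.mem_centralizer_singleton_iff.1 c.2
  rw [← mul_assoc, h3, mul_assoc u, mul_assoc u]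
  exact congrArg (fun x => u * x.1) hc

theorem jobPeel : JobPeel := by
  intro p hp G _ _ P φ _ hφ
  let A : Set (ConjClasses G) :=
    ConjClasses.mk '' {g | Sm p g} \ ConjClasses.mk '' {g | Sm (p - 1) g}
  have h1 : kap p G ≤ kap (p - 1) G + #A.toFinset := by
    rw [← Set.ncard_eq_toFinset_card', add_comm]
    exact Set.ncard_le_ncard_sdiff_add_ncard _ _
  let W : Finset (G × G) := {w | w.1 ∈ (P : Subgroup G) ∧ w.2 ∈ (P : Subgroup G) ∧ w.1 ≠ 1 ∧
    w.1 * w.2 = w.2 * w.1}
  have h2 := sum_card_bipartiteAbove_eq_sum_card_bipartiteBelow (s := A.toFinset) (t := W)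
    fun a w => a ∈ Bs (p - 1) w.1
  have h3 : ∀ a ∈ A.toFinset, Nat.card (P : Subgroup G) ≤
      #(W.bipartiteAbove (fun a w => a ∈ Bs (p - 1) w.1) a) := fun a ha => by
    obtain ⟨⟨g, hg, rfl⟩, a2⟩ := Set.mem_toFinset.1 ha
    obtain ⟨s, u, b1, b2, b3, b4, k, b5⟩ := jordan hp.out g
    have b6 : Sm (p - 1) s := fun q c d =>
      Nat.le_sub_one_of_lt ((hg q c (d.trans b4)).lt_of_ne fun e => b3 (e ▸ d))
    have b7 : u ≠ 1 := fun e => a2 ⟨s, b6, by rw [← b2, e, one_mul]⟩
    obtain ⟨Q, hQ⟩ := (IsPGroup.of_card_dvd_pow (G := Subgroup.zpowers u) (p := p) (n := k)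
      (by rw [Nat.card_zpowers]; exact orderOf_dvd_of_pow_eq_one b5)).exists_le_sylow
    obtain ⟨h, hh⟩ := MulAction.exists_smul_eq G Q P
    have b8 := Bs_conj (⟨s, b1, b6, by rw [b2]⟩ : ConjClasses.mk g ∈ Bs (p - 1) u) h
    have b9 : h * u * h⁻¹ ∈ ((h • Q : Sylow p G) : Subgroup G) :=
      ⟨u, hQ (Subgroup.mem_zpowers u), rfl⟩
    have b10 : h * u * h⁻¹ ≠ 1 := by simpa using b7
    rw [hh] at b9
    generalize h * u * h⁻¹ = v at b8 b9 b10
    let R := (P : Subgroup G)
    let c : R → G := fun x => x * v * x⁻¹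
    let t : G → R := Function.invFun c
    have ht : ∀ x, c (t (c x)) = c x := fun x => Function.invFun_eq ⟨x, rfl⟩
    rw [Nat.card_eq_fintype_card]
    refine card_le_card_of_injOn (fun x => (c x, (x * (t (c x))⁻¹ : R))) (fun x _ => ?_)
      fun x _ y _ e => ?_
    · refine (mem_bipartiteAbove _).2 ⟨mem_filter.2 ⟨mem_univ _,
        R.mul_mem (R.mul_mem x.2 b9) (R.inv_mem x.2), (x * (t (c x))⁻¹).2,
        by simpa [c] using b10, ?_⟩,
        Bs_conj b8 _⟩
      change c x * (x * (t (c x) : G)⁻¹) = x * (t (c x) : G)⁻¹ * c x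
      have e := ht x
      generalize t (c x) = y at e ⊢
      conv_rhs => rw [← e]
      simp [c, mul_assoc]
    · obtain ⟨e1, e2⟩ := Prod.mk.inj e
      rw [e1] at e2
      exact mul_right_cancel (Subtype.ext e2)
  have h4 : ∀ w ∈ W, (#(A.toFinset.bipartiteBelow (fun a w => a ∈ Bs (p - 1) w.1) w) : ℝ) ≤
      φ w.1 := fun w hw => by
    obtain ⟨a1, -, a3, -⟩ := (mem_filter.1 hw).2
    refine le_trans (Nat.cast_le.2 (le_trans ?_ (Bs_card _ _))) (hφ _ a1 a3)
    rw [Set.ncard_eq_toFinset_card']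
    exact card_le_card fun a ha => Set.mem_toFinset.2 ((mem_bipartiteBelow _).1 ha).2
  have h5 := card_nsmul_le_sum _ _ _ h3
  rw [h2, smul_eq_mul, ← Nat.cast_le (α := ℝ), Nat.cast_sum, Nat.cast_mul] at h5
  rw [← Fintype.sum_prod_type', ← sum_filter]
  have h6 := mul_le_mul_of_nonneg_left (Nat.cast_le (α := ℝ).2 h1)
    (Nat.cast_nonneg (Nat.card (P : Subgroup G)))
  rw [Nat.cast_add] at h6
  linarith [sum_le_sum h4]

end peel

section alt

/-- Remove one unit from the first block. -/
def red : List ℕ → List ℕ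
  | [] => []
  | a :: l => if a = 1 then l else (a - 1) :: l

def redC {n : ℕ} (c : Composition n) : Composition (n - 1) where
  blocks := red c.blocks
  blocks_pos := by
    obtain ⟨_ | ⟨a, l⟩, h1, h2⟩ := c
    · exact h1
    · intro i hi
      have := h1 List.mem_cons_self
      rw [red] at hi
      split_ifs at hi
      · exact h1 (List.mem_cons_of_mem _ hi)
      · rcases List.mem_cons.1 hi with e | e
        · omega
        · exact h1 (List.mem_cons_of_mem _ e)
  blocks_sum := by
    obtain ⟨_ | ⟨a, l⟩, h1, h2⟩ := c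
    · simp [red, ← h2]
    · have := h1 List.mem_cons_self
      rw [List.sum_cons] at h2
      rw [red]
      split_ifs
      · omega
      · rw [List.sum_cons]; omega

theorem redC_inj {n : ℕ} {c d : Composition n} (h : redC c = redC d)
    (h' : Even (c.blocks.length + d.blocks.length)) : c = d := by
  have h0 : red c.blocks = red d.blocks := congrArg Composition.blocks h
  obtain ⟨l, h1, h2⟩ := c
  obtain ⟨m, h3, h4⟩ := d
  obtain ⟨k, hk⟩ := h'
  refine Composition.ext (?_ : l = m)
  rcases l with _ | ⟨a, l⟩ <;> rcases m with _ | ⟨b, m⟩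
  · rfl
  · have := h3 List.mem_cons_self
    simp at h2 h4; omega
  · have := h1 List.mem_cons_self
    simp at h2 h4; omega
  have := h1 List.mem_cons_self
  have := h3 List.mem_cons_self
  simp only [red] at h0
  simp only [List.length_cons] at hk
  split_ifs at h0 with e e' e'
  · rw [e, e', h0]
  · rw [h0, List.length_cons] at hk; omega
  · rw [← h0, List.length_cons] at hk; omega
  · obtain ⟨e1, rfl⟩ := List.cons.inj h0
    rw [show a = b by omega]

variable {X : Type} [Fintype X] [DecidableEq X]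

theorem even_parts {σ : Perm X} (h : Perm.sign σ = 1) :
    Even (σ.partition.parts.card + Fintype.card X) := by
  rw [Perm.sign_of_cycleType, neg_one_pow_eq_one_iff_even (by decide), Perm.sum_cycleType] at h
  rw [Perm.parts_partition, Multiset.card_add, Multiset.card_replicate]
  have := card_le_univ σ.support
  obtain ⟨k, hk⟩ := h
  exact ⟨k + Fintype.card X - #σ.support, by omega⟩

/-- A composition attached to a class. -/
noncomputable def cmp (S : Subgroup (Perm X)) (c : ConjClasses S) : Composition (Fintype.card X) :=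
  Function.surjInv Nat.Partition.ofComposition_surj
    (Function.surjInv ConjClasses.mk_surjective c).1.partition

theorem cmp_eq {S : Subgroup (Perm X)} {c d : ConjClasses S} (h : cmp S c = cmp S d) :
    ∃ g : Perm X, g * (Function.surjInv ConjClasses.mk_surjective c).1 * g⁻¹ =
      (Function.surjInv ConjClasses.mk_surjective d).1 :=
  isConj_iff.1 (Perm.partition_eq_of_isConj.2 (Function.injective_surjInv _ h))

theorem eq_of_mem {S : Subgroup (Perm X)} {c d : ConjClasses S} {g : Perm X} (hg : g ∈ S)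
    (h : g * (Function.surjInv ConjClasses.mk_surjective c).1 * g⁻¹ =
      (Function.surjInv ConjClasses.mk_surjective d).1) : c = d := by
  rw [← Function.surjInv_eq ConjClasses.mk_surjective c,
    ← Function.surjInv_eq ConjClasses.mk_surjective d]
  exact ConjClasses.mk_eq_mk_iff_isConj.2 (isConj_iff.2 ⟨⟨g, hg⟩, Subtype.ext h⟩)

theorem goal_top : Goal X ⊤ := by
  rw [Goal, ← composition_card, ← Nat.card_eq_fintype_card]
  exact Nat.card_le_card_of_injective (cmp ⊤) fun c d h =>
    (cmp_eq h).elim fun g => eq_of_mem trivial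

theorem goal_alt (hX : 2 ≤ Fintype.card X) : Goal X (alternatingGroup X) := by
  have := Fintype.ofFinite (ConjClasses (alternatingGroup X))
  have hp : ∀ c, Even ((cmp (alternatingGroup X) c).blocks.length + Fintype.card X) := fun c => by
    have h1 := even_parts (Perm.mem_alternatingGroup.1
      (Function.surjInv ConjClasses.mk_surjective c).2)
    rwa [← Function.surjInv_eq Nat.Partition.ofComposition_surj (Perm.partition _),
      Nat.Partition.ofComposition_parts, Multiset.coe_card] at h1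
  have h1 := card_le_mul_card_image (f := fun c => redC (cmp (alternatingGroup X) c)) univ 2
    fun a _ => by
      by_contra! h
      obtain ⟨c, hc, d, hd, e, he, n1, n2, n3⟩ := two_lt_card.1 h
      have key : ∀ c d, redC (cmp _ c) = a → redC (cmp _ d) = a → c ≠ d → ∃ g : Perm X,
          Perm.sign g = -1 ∧ g * (Function.surjInv ConjClasses.mk_surjective c).1 * g⁻¹ =
          (Function.surjInv (α := alternatingGroup X) ConjClasses.mk_surjective d).1 :=
        fun c d b1 b2 b3 => by
          obtain ⟨g, hg⟩ := cmp_eq (redC_inj (b1.trans b2.symm) (by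
            obtain ⟨k, hk⟩ := hp c
            obtain ⟨l, hl⟩ := hp d
            exact ⟨k + l - Fintype.card X, by omega⟩))
          exact ⟨g, (Int.units_eq_one_or _).resolve_left fun b =>
            b3 (eq_of_mem (Perm.mem_alternatingGroup.2 b) hg), hg⟩
      obtain ⟨g, g1, g2⟩ := key c d (mem_filter.1 hc).2 (mem_filter.1 hd).2 n1
      obtain ⟨k, k1, k2⟩ := key c e (mem_filter.1 hc).2 (mem_filter.1 he).2 n2
      exact n3 (eq_of_mem (g := k * g⁻¹) (Perm.mem_alternatingGroup.2 (by simp [g1, k1]))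
        (by rw [← g2, ← k2]; group))
  have h2 := card_le_univ (univ.image fun c => redC (cmp (alternatingGroup X) c))
  rw [composition_card] at h2
  rw [Goal, Nat.card_eq_fintype_card, show Fintype.card X - 1 = Fintype.card X - 1 - 1 + 1 by omega,
    pow_succ']
  exact h1.trans (Nat.mul_le_mul_left 2 h2)

theorem jobAlt : JobAlt := by
  intro X _ _ S h
  by_cases hS : S = ⊤
  · exact hS ▸ goal_top
  have h1 : 2 ≤ Fintype.card X := by
    by_contra! a
    have := Fintype.card_le_one_iff_subsingleton.1 (Nat.le_of_lt_succ a)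
    exact hS (Subsingleton.elim _ _)
  rcases h with h | h
  · refine le_antisymm (fun g hg => ?_) h ▸ goal_alt h1
    by_contra a
    refine hS ((Subgroup.eq_top_iff' _).2 fun x => ?_)
    have a1 := (Int.units_eq_one_or _).resolve_left (mt Perm.mem_alternatingGroup.2 a)
    rcases Int.units_eq_one_or (Perm.sign x) with b | b
    · exact h (Perm.mem_alternatingGroup.2 b)
    · exact (S.mul_mem_cancel_right hg).1 (h (Perm.mem_alternatingGroup.2 (by simp [a1, b])))
  · have h2 := S.card_mul_index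
    have h3 : S.index ≠ 1 := mt Subgroup.index_eq_one.1 hS
    have h4 : S.index ≠ 0 := Subgroup.index_ne_zero_of_finite
    have h5 := Nat.mul_le_mul_left (Nat.card S) (by omega : 2 ≤ S.index)
    rw [h2, Nat.card_perm, Nat.card_eq_fintype_card (α := X)] at h5
    refine (Nat.card_le_card_of_surjective _ ConjClasses.mk_surjective).trans ?_
    generalize Fintype.card X = n at *
    interval_cases n <;> simp [Nat.factorial] at h5 ⊢ <;> omega

end alt

section top
variable {G X : Type} [Group G] [Fintype G] [Fintype X] [MulAction G X]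

theorem card_orbF (H : Subgroup G) (y : X) :
    #(orbF H y) * Nat.card (H ⊓ MulAction.stabilizer G y : Subgroup G) = Nat.card H := by
  rw [← (MulAction.stabilizer H y).index_mul_card, MulAction.index_stabilizer,
    ← Set.ncard_coe_finset, ← Subgroup.card_map_of_injective H.subtype_injective]
  congr 3
  · ext z; simp [mem_orbF, MulAction.mem_orbit_iff, Subgroup.smul_def]
  · ext g; simp [Subgroup.smul_def, and_comm]

theorem jobTop : JobTop := by
  intro p G X _ _ _ _ R x hp hR ⟨g₀, a1, a2⟩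
  have := Fact.mk hp
  obtain ⟨k, hk⟩ := IsPGroup.iff_card.1 hR
  obtain ⟨i, hi⟩ := IsPGroup.iff_card.1 (hR.to_subgroup (MulAction.stabilizer R x))
  have h1 : i < k := by
    refine (Nat.pow_lt_pow_iff_right hp.one_lt).1 (hk ▸ hi ▸ ?_)
    refine (Subgroup.card_le_card_group _).lt_of_ne fun e => a2 ?_
    exact ((Subgroup.card_eq_iff_eq_top _).1 e ▸ Subgroup.mem_top (⟨g₀, a1⟩ : R) :
      (⟨g₀, a1⟩ : R) ∈ MulAction.stabilizer R x)
  obtain ⟨k, rfl⟩ : ∃ j, k = j + 1 := ⟨k - 1, by omega⟩
  obtain ⟨K, h2, h3⟩ := Sylow.exists_subgroup_card_pow_prime_le p (m := k)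
    (hk ▸ pow_dvd_pow p k.le_succ) _ hi (by omega)
  have h4 : K.index = p := by
    have := K.card_mul_index
    rw [h2, hk, pow_succ] at this
    exact Nat.eq_of_mul_eq_mul_left (pow_pos hp.pos k) this
  have h5 : K.Normal := Subgroup.normal_of_index_eq_minFac_card
    (by rw [h4, hk, hp.pow_minFac k.succ_ne_zero])
  have h6 : Nat.card (K.map R.subtype) = p ^ k := by
    rw [Subgroup.card_map_of_injective R.subtype_injective, h2]
  have h7 : ∀ g ∈ R, ∀ y ∈ orbF R x, g • y = y → g ∈ K.map R.subtype := fun g hg y hy e => by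
    obtain ⟨t, ht, rfl⟩ := mem_orbF.1 hy
    refine ⟨⟨g, hg⟩, (h5.mem_comm_iff (a := ⟨g, hg⟩ * ⟨t, ht⟩) (b := ⟨t, ht⟩⁻¹)).2 (h3 ?_) |>
      (by rwa [mul_inv_cancel_right] at ·), rfl⟩
    change (t⁻¹ * (g * t)) • x = x
    rw [mul_smul, mul_smul, e, inv_smul_smul]
  have h8 : ∀ y ∈ orbF R x, #(orbF R x) = p * #(orbF (K.map R.subtype) y) := fun y hy => by
    have b1 := card_orbF R y
    have b2 := card_orbF (K.map R.subtype) y
    have b3 : orbF R y = orbF R x := by
      obtain ⟨t, ht, rfl⟩ := mem_orbF.1 hy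
      ext z
      simp only [mem_orbF]
      exact ⟨fun ⟨g, a, b⟩ => ⟨g * t, R.mul_mem a ht, by rwa [mul_smul]⟩,
        fun ⟨g, a, b⟩ => ⟨g * t⁻¹, R.mul_mem a (R.inv_mem ht), by rwa [mul_smul, inv_smul_smul]⟩⟩
    rw [show K.map R.subtype ⊓ MulAction.stabilizer G y = R ⊓ MulAction.stabilizer G y from
      le_antisymm (inf_le_inf_right _ (Subgroup.map_subtype_le _))
        fun g a => ⟨h7 g a.1 y hy a.2, a.2⟩, h6] at b2
    rw [b3, hk, pow_succ', ← b2, ← mul_assoc] at b1
    exact Nat.eq_of_mul_eq_mul_right Nat.card_pos b1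
  have h9 : x ∈ orbF R x := mem_orbF.2 ⟨1, R.one_mem, one_smul _ _⟩
  obtain ⟨j, -, hj⟩ := (Nat.dvd_prime_pow hp).1
    (Dvd.intro _ ((card_orbF (K.map R.subtype) x).trans h6))
  refine ⟨K.map R.subtype, Subgroup.map_subtype_le _, by rw [hk, h6, pow_succ'], ?_, h7, j,
    by rw [h8 x h9, hj], fun y hy => Nat.eq_of_mul_eq_mul_left hp.pos ?_⟩
  · rintro g hg _ ⟨h, a, rfl⟩
    exact ⟨_, h5.conj_mem h a ⟨g, hg⟩, rfl⟩
  · rw [← h8 y hy, h8 x h9, hj]

end top

end H41.Kc
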