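/- Lines of Sylow subgroups of prime order: the basic facts and the two counting arguments. -/
import Cfsg.Agent.H36.NGSpec

set_option autoImplicit false

namespace H41.NG
open Cfsg H87 H39 H36.NG Finset

universe u

variable {G : Type u} [Group G] {p : ℕ}

abbrev cj (g : G) (Y : Subgroup G) : Subgroup G := Y.map (MulAut.conj g).toMonoidHom

theorem mem_cj {g x : G} {Y : Subgroup G} : x ∈ cj g Y ↔ g⁻¹ * x * g ∈ Y :=
  ⟨by rintro ⟨y, hy, rfl⟩; simpa [mul_assoc] using hy, fun h => ⟨_, h, by simp [mul_assoc]⟩⟩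

theorem cj_cj (g h : G) (Y : Subgroup G) : cj g (cj h Y) = cj (g * h) Y := by
  ext x; simp only [mem_cj, mul_inv_rev, mul_assoc]

theorem cj_one (Y : Subgroup G) : cj 1 Y = Y := by ext x; simp [mem_cj]

theorem cj_inv (g : G) (Y : Subgroup G) : cj g⁻¹ (cj g Y) = Y := by
  rw [cj_cj, inv_mul_cancel, cj_one]

theorem cj_mono (g : G) {Y Z : Subgroup G} (h : Y ≤ Z) : cj g Y ≤ cj g Z := Subgroup.map_mono h

theorem cj_inj (g : G) {Y Z : Subgroup G} (h : cj g Y = cj g Z) : Y = Z := by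
  rw [← cj_inv g Y, h, cj_inv]

theorem cj_cen {c : G} {Y : Subgroup G} (hc : c ∈ Cen Y) : cj c Y = Y := by
  refine le_antisymm ?_ fun x hx => mem_cj.2 ?_
  · rintro _ ⟨y, hy, rfl⟩
    simpa [← hc y hy] using hy
  · rwa [mul_assoc, hc x hx, inv_mul_cancel_left]

theorem mem_cen_smul {g x : G} {Q : Sylow p G} :
    x ∈ Cen ((g • Q : Sylow p G) : Subgroup G) ↔ g⁻¹ * x * g ∈ Cen (Q : Subgroup G) := by
  constructor
  · intro h y hy
    have := h (g * y * g⁻¹) ⟨y, hy, rfl⟩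
    calc y * (g⁻¹ * x * g) = g⁻¹ * (g * y * g⁻¹ * x) * g := by group
      _ = _ := by rw [this]; group
  · rintro h _ ⟨y, hy, rfl⟩
    have := h y hy
    change g * y * g⁻¹ * x = x * (g * y * g⁻¹)
    calc g * y * g⁻¹ * x = g * (y * (g⁻¹ * x * g)) * g⁻¹ := by group
      _ = _ := by rw [this]; group

theorem ZZ_smul (g : G) (Q R : Sylow p G) : ZZ (g • Q) (g • R) = cj g (ZZ Q R) := by
  ext x; simp only [ZZ, mem_cj, Subgroup.mem_inf, mem_cen_smul]

theorem smul_FS (Y : Subgroup G) (g : G) (Q : Sylow p G) :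
    g • Q ∈ FS p (cj g Y) ↔ Q ∈ FS p Y :=
  ⟨fun h x hx => by
    have := mem_cen_smul.1 (h (mem_cj.2 (by simpa [mul_assoc] using hx) : g * x * g⁻¹ ∈ _))
    simpa [mul_assoc] using this, fun h x hx => mem_cen_smul.2 (h (mem_cj.1 hx))⟩

theorem smul_FS' {Y : Subgroup G} {g : G} (hg : cj g Y = Y) {Q : Sylow p G} (h : Q ∈ FS p Y) :
    g • Q ∈ FS p Y := hg ▸ (smul_FS Y g Q).2 h

theorem FS_anti {Y Z : Subgroup G} (h : Y ≤ Z) {Q : Sylow p G} (hQ : Q ∈ FS p Z) :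
    Q ∈ FS p Y := h.trans hQ

theorem le_cen {Y : Subgroup G} {Q : Sylow p G} (h : Q ∈ FS p Y) : (Q : Subgroup G) ≤ Cen Y :=
  Subgroup.le_centralizer_iff.1 h

theorem mx_cj {Z : Subgroup G} (g : G) (h : Mx p Z) : Mx p (cj g Z) := by
  obtain ⟨h0, Q, R, h1, h2, h3⟩ := h
  refine ⟨fun e => h0 (cj_inj g (e.trans (Subgroup.map_bot _).symm)), g • Q, g • R,
    fun e => h1 (smul_left_cancel g e), by rw [ZZ_smul, ← h2], fun R' a b => ?_⟩
  obtain ⟨R', rfl⟩ := MulAction.surjective g R'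
  rw [ZZ_smul] at b ⊢
  rw [h3 R' (fun e => a (e ▸ rfl)) (by simpa only [cj_inv] using cj_mono g⁻¹ b)]

variable [Finite G] [hp : Fact p.Prime]

theorem FS_trans {Y : Subgroup G} {Q R : Sylow p G} (hQ : Q ∈ FS p Y) (hR : R ∈ FS p Y) :
    ∃ c ∈ Cen Y, c • Q = R := by
  obtain ⟨c, hc⟩ := MulAction.exists_smul_eq (Cen Y) (Q.subtype (le_cen hQ)) (R.subtype (le_cen hR))
  rw [Sylow.smul_subtype] at hc
  exact ⟨c, c.2, Sylow.subtype_injective hc⟩

theorem mx_ZZ {Z : Subgroup G} (h : Mx p Z) {Q R : Sylow p G} (hQ : Q ∈ FS p Z) (hR : R ∈ FS p Z)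
    (hne : Q ≠ R) : ZZ Q R = Z := by
  obtain ⟨-, Q0, R0, -, h2, h3⟩ := h
  have h4 : Q0 ∈ FS p Z := h2.le.trans inf_le_left
  obtain ⟨c, hc, rfl⟩ := FS_trans hQ h4
  have := h3 (c • R) (fun e => hne (smul_left_cancel c e).symm)
    (le_inf h4 (smul_FS' (cj_cen hc) hR))
  exact cj_inj c (by rw [← ZZ_smul, this, cj_cen hc])

theorem mx_eq {Z Z' : Subgroup G} (h : Mx p Z) (h' : Mx p Z') {Q R : Sylow p G} (hQ : Q ∈ FS p Z)
    (hR : R ∈ FS p Z) (hQ' : Q ∈ FS p Z') (hR' : R ∈ FS p Z') (hne : Z ≠ Z') : Q = R := by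
  by_contra e
  exact hne ((mx_ZZ h hQ hR e).symm.trans (mx_ZZ h' hQ' hR' e))

theorem exists_mx {Y : Subgroup G} {Q R : Sylow p G} (h0 : Y ≠ ⊥) (hQ : Q ∈ FS p Y)
    (hR : R ∈ FS p Y) (hne : Q ≠ R) : ∃ Z, Mx p Z ∧ Y ≤ Z ∧ Q ∈ FS p Z := by
  obtain ⟨Z, h1, ⟨R', h2, rfl⟩, h3⟩ := Finite.exists_le_maximal
    (p := fun Z => ∃ R', Q ≠ R' ∧ Z = ZZ Q R') ⟨R, hne, rfl⟩
  have h4 : Y ≤ ZZ Q R' := (le_inf hQ hR).trans h1
  exact ⟨_, ⟨fun e => h0 (le_bot_iff.1 (e ▸ h4)), Q, R', h2, rfl, fun R'' a b =>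
    le_antisymm (h3 ⟨R'', a.symm, rfl⟩ b) b⟩, h4, fun _ a => a.1⟩

variable (hS : Sm G p)
include hS

theorem exists_ne_one (Q : Sylow p G) : ∃ y ∈ (Q : Subgroup G), y ≠ 1 := by
  refine (Q : Subgroup G).bot_or_exists_ne_one.resolve_left fun e => ?_
  have := hS.card Q
  rw [e, Subgroup.card_bot] at this
  exact hp.out.one_lt.ne this

theorem fix_iff {Q R : Sylow p G} {y : G} (hy : y ∈ (Q : Subgroup G)) (h1 : y ≠ 1) :
    y • R = R ↔ R = Q := by
  have h2 : orderOf y = p := by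
    rw [← Subgroup.orderOf_mk y hy]
    exact ((Nat.dvd_prime hp.out).1 ((orderOf_dvd_natCard _).trans (hS.card Q).dvd)).resolve_left
      fun e => h1 (congrArg Subtype.val (orderOf_eq_one_iff.1 e))
  rw [smul_sylow_eq_iff_of_orderOf h2]
  exact ⟨fun h => sylow_eq_of_mem_prime (hS.card R) h hy h1, fun e => e ▸ hy⟩

theorem inv_count (S : Set (Sylow p G)) (Q : Sylow p G)
    (h : ∀ y ∈ (Q : Subgroup G), ∀ R ∈ S, y • R ∈ S) :
    (Q ∈ S → S.ncard % p = 1) ∧ (Q ∉ S → p ∣ S.ncard) := by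
  let A : SubMulAction (Q : Subgroup G) (Sylow p G) := ⟨S, fun y _ a => h y y.2 _ a⟩
  have h1 := Q.isPGroup'.card_modEq_card_fixedPoints A
  obtain ⟨y, hy, h2⟩ := exists_ne_one hS Q
  have h3 : ∀ R : A, R ∈ MulAction.fixedPoints (Q : Subgroup G) A ↔ R.1 = Q := fun R =>
    ⟨fun a => (fix_iff hS hy h2).1 (congrArg Subtype.val (a ⟨y, hy⟩)), fun a z => Subtype.ext (by
      change (z : G) • R.1 = R.1
      rw [a, Sylow.smul_eq_iff_mem_normalizer]
      exact Subgroup.le_normalizer z.2)⟩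
  change S.ncard ≡ (MulAction.fixedPoints (Q : Subgroup G) A).ncard [MOD p] at h1
  refine ⟨fun a => ?_, fun a => ?_⟩
  · rw [show MulAction.fixedPoints (Q : Subgroup G) A = {⟨Q, a⟩} from
      Set.ext fun R => (h3 R).trans ⟨fun e => Subtype.ext e, fun e => congrArg Subtype.val e⟩, Set.ncard_singleton] at h1
    rw [h1, Nat.mod_eq_of_lt hp.out.one_lt]
  · rw [Set.eq_empty_of_forall_notMem fun R b => a (((h3 R).1 b) ▸ R.2), Set.ncard_empty] at h1
    exact Nat.modEq_zero_iff_dvd.1 h1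

theorem mx_card {Z : Subgroup G} (h : Mx p Z) :
    p + 1 ≤ (FS p Z).ncard ∧ (FS p Z).ncard % p = 1 := by
  obtain ⟨-, Q, R, h1, h2, -⟩ := h
  have h3 : Q ∈ FS p Z := h2.le.trans inf_le_left
  have h4 := (inv_count hS _ Q fun y hy _ a => smul_FS' (cj_cen (le_cen h3 hy)) a).1 h3
  have h5 : 1 < (FS p Z).ncard :=
    (Set.one_lt_ncard (Set.toFinite _)).2 ⟨Q, h3, R, h2.le.trans inf_le_right, h1⟩
  refine ⟨?_, h4⟩
  have h6 := Nat.div_add_mod (FS p Z).ncard p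
  rcases Nat.eq_zero_or_pos ((FS p Z).ncard / p) with e | e
  · rw [e, mul_zero] at h6; omega
  · have := Nat.mul_le_mul_left p e
    omega

theorem eq_bot_of_univ {Y : Subgroup G} (h : FS p Y = Set.univ) : Y = ⊥ := by
  have := hS.simple
  obtain ⟨Q⟩ : Nonempty (Sylow p G) := inferInstance
  obtain ⟨y, hy, h2⟩ := exists_ne_one hS Q
  have h3 : (Cen Y).normalCore = ⊤ := (Subgroup.normalCore_normal _).eq_bot_or_eq_top.resolve_left
    fun e => h2 (Subgroup.mem_bot.1 (e ▸ fun g =>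
      le_cen (Q := g • Q) (h ▸ Set.mem_univ _) ⟨y, hy, rfl⟩))
  have h4 : Y ≤ Subgroup.center G := fun x hx => Subgroup.mem_center_iff.2 fun g =>
    ((Cen Y).normalCore_le (h3 ▸ Subgroup.mem_top g) x hx).symm
  rcases (Subgroup.normal_of_characteristic (Subgroup.center G)).eq_bot_or_eq_top with e | e
  · exact le_bot_iff.1 (e ▸ h4)
  · have h5 : commutator G = ⊥ := (commutator_eq_bot_iff_center_eq_top G).2 e
    exact absurd (h5.symm.trans hS.perf) bot_ne_top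

theorem second_line {Y Z : Subgroup G} {Q : Sylow p G} (hZ : Mx p Z) (hY : Y ≤ Z)
    (hQ : Q ∈ FS p Z) : FS p Y = FS p Z ∨ ∃ Z', Mx p Z' ∧ Y ≤ Z' ∧ Q ∈ FS p Z' ∧ Z' ≠ Z := by
  by_contra! h
  obtain ⟨h1, h2⟩ := h
  obtain ⟨R, hR, hR'⟩ : ∃ R ∈ FS p Y, R ∉ FS p Z := by
    by_contra! a
    exact h1 (Set.Subset.antisymm a fun _ => FS_anti hY)
  have hQY := FS_anti hY hQ
  have ln : ∀ c ∈ Cen Y, ∀ W, Y ≤ W → Y ≤ cj c W := fun c hc W a => cj_cen hc ▸ cj_mono c a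
  have uq : ∀ T W W', Mx p W → Mx p W' → Y ≤ W → Y ≤ W' → T ∈ FS p W → T ∈ FS p W' → W = W' :=
    fun T W W' a a' b b' d d' => by
      obtain ⟨c, hc, e⟩ := FS_trans (FS_anti b d) hQY
      exact cj_inj c ((h2 _ (mx_cj c a) (ln c hc W b) (e ▸ (smul_FS W c T).2 d)).trans
        (h2 _ (mx_cj c a') (ln c hc W' b') (e ▸ (smul_FS W' c T).2 d')).symm)
  obtain ⟨c, hc, rfl⟩ := FS_trans hQY hR
  have a1 := mx_cj c hZ
  have a2 := ln c hc Z hY
  have a3 := (smul_FS Z c Q).2 hQ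
  generalize cj c Z = W at a1 a2 a3
  have a4 : Q ∉ FS p W := fun a => hR' (h2 W a1 a2 a ▸ a3)
  have a5 : ∀ w : (Q : Subgroup G), cj (w : G) W = W → w = 1 := fun w hw => by
    by_contra e
    have b1 := (inv_count hS (FS p W) Q fun y hy T a => by
      obtain ⟨k, hk⟩ := mem_powers_of_prime_card (hS.card Q) e (g' := ⟨y, hy⟩)
      obtain rfl : (w : G) ^ k = y := congrArg Subtype.val hk
      clear hk hy
      induction k with
      | zero => simpa using a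
      | succ k ih => rw [pow_succ', mul_smul]; exact smul_FS' hw ih).2 a4
    have b2 := (mx_card hS a1).2
    rw [Nat.mod_eq_zero_of_dvd b1] at b2
    omega
  have a6 : Function.Injective fun x : ↥(Q : Subgroup G) × ↥(FS p W) => (x.1 : G) • x.2.1 := by
    rintro ⟨y, T, hT⟩ ⟨y', T', hT'⟩ e
    change (y : G) • T = (y' : G) • T' at e
    have b1 := uq _ _ _ (mx_cj (y : G) a1) (mx_cj (y' : G) a1) (ln y (le_cen hQY y.2) W a2)
      (ln y' (le_cen hQY y'.2) W a2) ((smul_FS W y T).2 hT) (e ▸ (smul_FS W y' T').2 hT')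
    obtain rfl : y' = y := inv_mul_eq_one.1 (a5 (y'⁻¹ * y) (by
      rw [Subgroup.coe_mul, ← cj_cj, b1, Subgroup.coe_inv, cj_inv]))
    obtain rfl := smul_left_cancel _ e
    rfl
  have a7 := Nat.card_le_card_of_injective _ a6
  rw [Nat.card_prod, hS.card Q] at a7
  have a8 : p + 1 ≤ Nat.card (FS p W) := (mx_card hS a1).1
  have a9 := hS.lt
  nlinarith

theorem double_count {Y Z Z' : Subgroup G} {Q : Sylow p G} (hZ : Mx p Z) (hZ' : Mx p Z')
    (hne : Z ≠ Z') (hQ : Q ∈ FS p Z) (hQ' : Q ∈ FS p Z') (hY : Y ≤ Z) (hY' : Y ≤ Z') :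
    (FS p Z).ncard * (p + 2) ≤ 2 * (FS p Y).ncard := by
  classical
  have := Fintype.ofFinite (Subgroup G)
  have := Fintype.ofFinite (Sylow p G)
  let L : Sylow p G → Finset (Subgroup G) := fun R => {W | Mx p W ∧ Y ≤ W ∧ R ∈ FS p W}
  have hL : ∀ R ∈ FS p Y, ∀ R' ∈ FS p Y, #(L R) ≤ #(L R') := fun R a R' b => by
    obtain ⟨c, hc, rfl⟩ := FS_trans a b
    refine card_le_card_of_injOn (cj c) (fun W hW => ?_) fun W _ W' _ => cj_inj c
    obtain ⟨d1, d2, d3⟩ := (mem_filter.1 hW).2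
    exact mem_filter.2 ⟨mem_univ _, mx_cj c d1, cj_cen hc ▸ cj_mono c d2, (smul_FS W c R).2 d3⟩
  have hQY := FS_anti hY hQ
  have h2 : 1 < #(L Q) := one_lt_card.2
    ⟨Z, mem_filter.2 ⟨mem_univ _, hZ, hY, hQ⟩, Z', mem_filter.2 ⟨mem_univ _, hZ', hY', hQ'⟩, hne⟩
  let M : Finset (Subgroup G) := {W | Mx p W ∧ Y ≤ W ∧ W ≠ Z}
  have h3 := card_mul_le_card_mul (s := (FS p Z).toFinset) (t := M) (fun R W => R ∈ FS p W)
    (m := #(L Q) - 1) (n := 1) (fun R hR => by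
      refine (Nat.sub_le_sub_right (hL Q hQY R (FS_anti hY (Set.mem_toFinset.1 hR))) 1).trans
        (pred_card_le_card_erase (a := Z) |>.trans (card_le_card fun W hW => ?_))
      obtain ⟨d0, hW⟩ := mem_erase.1 hW
      obtain ⟨d1, d2, d3⟩ := (mem_filter.1 hW).2
      exact (mem_bipartiteAbove _).2 ⟨mem_filter.2 ⟨mem_univ _, d1, d2, d0⟩, d3⟩)
    fun W hW => card_le_one.2 fun R a R' b => by
      obtain ⟨d1, -, d3⟩ := (mem_filter.1 hW).2
      obtain ⟨a1, a2⟩ := (mem_bipartiteBelow _).1 a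
      obtain ⟨b1, b2⟩ := (mem_bipartiteBelow _).1 b
      exact mx_eq d1 hZ a2 b2 (Set.mem_toFinset.1 a1) (Set.mem_toFinset.1 b1) d3
  have h4 := card_mul_le_card_mul (s := M) (t := (FS p Y).toFinset \ (FS p Z).toFinset)
    (fun W R => R ∈ FS p W) (m := p) (n := #(L Q)) (fun W hW => by
      obtain ⟨d1, d2, d3⟩ := (mem_filter.1 hW).2
      have e1 := (mx_card hS d1).1
      rw [Set.ncard_eq_toFinset_card', ← card_sdiff_add_card_inter _ (FS p Z).toFinset] at e1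
      have e2 : #((FS p W).toFinset ∩ (FS p Z).toFinset) ≤ 1 := card_le_one.2 fun R a R' b => by
        simp only [mem_inter, Set.mem_toFinset] at a b
        exact mx_eq d1 hZ a.1 b.1 a.2 b.2 d3
      refine (by omega : p ≤ #((FS p W).toFinset \ (FS p Z).toFinset)).trans
        (card_le_card fun R hR => ?_)
      simp only [mem_sdiff, Set.mem_toFinset] at hR
      exact (mem_bipartiteAbove _).2 ⟨by simpa using ⟨FS_anti d2 hR.1, hR.2⟩, hR.1⟩)
    fun R hR => by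
      refine le_trans (card_le_card fun W hW => ?_)
        (hL R (Set.mem_toFinset.1 (mem_sdiff.1 hR).1) Q hQY)
      obtain ⟨a1, a2⟩ := (mem_bipartiteBelow _).1 hW
      obtain ⟨d1, d2, -⟩ := (mem_filter.1 a1).2
      exact mem_filter.2 ⟨mem_univ _, d1, d2, a2⟩
  have h5 := card_sdiff_add_card_eq_card (s := (FS p Z).toFinset) (t := (FS p Y).toFinset)
    (Set.toFinset_subset_toFinset.2 fun _ => FS_anti hY)
  rw [Set.ncard_eq_toFinset_card', Set.ncard_eq_toFinset_card', ← h5]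
  obtain ⟨l, hl⟩ : ∃ l, #(L Q) = l + 2 := ⟨#(L Q) - 2, by omega⟩
  rw [hl] at h3 h4
  rw [show l + 2 - 1 = l + 1 from rfl, mul_one] at h3
  generalize #((FS p Y).toFinset \ (FS p Z).toFinset) = a at h4 ⊢
  generalize #(FS p Z).toFinset = b at h3 ⊢
  have h6 : (l + 2) * (b * p) ≤ (l + 2) * (2 * a) := by
    have := Nat.mul_le_mul_right p h3
    nlinarith [Nat.zero_le (l * b * p)]
  have := Nat.le_of_mul_le_mul_left h6 (by omega)
  nlinarith

theorem line_card {Z : Subgroup G} (h : Mx p Z) : (FS p Z).ncard = p + 1 := by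
  obtain ⟨h1, h2⟩ := mx_card hS h
  obtain ⟨Q, hQ⟩ := Set.nonempty_of_ncard_ne_zero (by omega : (FS p Z).ncard ≠ 0)
  have h3 : FS p (⊥ : Subgroup G) = Set.univ := Set.eq_univ_of_forall fun _ _ a => (bot_le : ⊥ ≤ Cen _) a
  obtain ⟨Z', a1, a2, a3, a4⟩ := (second_line hS h bot_le hQ).resolve_left fun e =>
    h.1 (eq_bot_of_univ hS (e ▸ h3))
  have h4 := double_count hS h a1 a4.symm hQ a3 bot_le a2
  rw [h3, Set.ncard_univ] at h4
  have h5 := hS.lt
  have h6 := Nat.div_add_mod (FS p Z).ncard p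
  rw [h2] at h6
  generalize (FS p Z).ncard / p = k at h6
  rw [← h6] at h1 h4 ⊢
  have h7 : k < 2 := by
    by_contra! e
    nlinarith [Nat.mul_le_mul_left p e]
  have := hp.out.pos
  interval_cases k <;> omega

omit hS hp [Finite G] [Group G]

theorem jobG1 : JobG1.{u} := fun _ _ _ _ _ hS =>
  ⟨inv_count hS, fun _ _ _ => FS_trans, fun _ g => mx_cj g, smul_FS,
    fun _ h _ a _ b => mx_ZZ h a b, fun _ => mx_card hS, fun _ _ _ => exists_mx,
    fun _ => eq_bot_of_univ hS⟩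

theorem jobG1b : JobG1b.{u} := fun _ _ _ _ _ hS _ _ _ => second_line hS

theorem jobG2 : JobG2.{u} := fun _ _ _ _ _ hS =>
  ⟨fun _ => line_card hS, fun _ _ _ _ a b c d e f g =>
    line_card hS a ▸ double_count hS a b c d e f g⟩

end H41.NG
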