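/- U4 tower (row S5210), chapter q = 3: slots Pull, Card. -/
import Cfsg.Agent.H90.Q3Spec
import Cfsg.Agent.H90.RFAsm
import Cfsg.Agent.H77.Trans

set_option autoImplicit false
set_option linter.unusedSectionVars false
set_option linter.unusedSimpArgs false
set_option linter.unusedVariables false

open Subgroup H28.U4 H77 Cfsg H90.Q3
open H90.RF (aY)

namespace H41.Q3

theorem card_Co9 : Nat.card (Co T9) = 3 ^ 6 := by
  have e : Co T9 ≃ W × ZMod 3 × ZMod 3 :=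
    ⟨fun u => (u.π, u.b.re, u.d.re), fun x => el x.1 x.2.1 x.2.2, el_eq, fun _ => rfl⟩
  have k : Nat.card F9 = 9 := by
    rw [Nat.card_congr (QuadraticAlgebra.equivProd (2 : ZMod 3) 0), Nat.card_prod, Nat.card_zmod]
  rw [Nat.card_congr e, Nat.card_prod, Nat.card_prod, Nat.card_prod, k, Nat.card_zmod]
  norm_num

theorem jobPull : JobPull := by
  intro Γ _ _ ι hι M hM h7
  haveI : Fact (Nat.Prime 3) := ⟨Nat.prime_three⟩
  let κ : Co T9 →* M := ι.codRestrict M hM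
  have hκ : Function.Injective κ := fun a b e => hι (congrArg Subtype.val e)
  have hκ' : Function.Injective (κ.comp (⊤ : Subgroup (Co T9)).subtype) := hκ.comp (subtype_injective _)
  obtain ⟨S, hS⟩ := H9.exists_sylow_eq_range (p := 3) hκ' (n := 6) (by rw [card_top, card_Co9]) h7
  obtain ⟨E, hE, re⟩ := H9.exists_pull hκ' S hS
  have ex : ∀ (X : Subgroup (Co T9)), ∀ n ∈ M, (∀ u ∈ X, ∃ u' ∈ X, n * ι u * n⁻¹ = ι u') →
      ∃ y ∈ aY E X, ∀ u ∈ X, n * ι u * n⁻¹ = ι (y u) := fun X n hn h => by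
    classical
    choose! f hf using h
    obtain ⟨y, hy, e⟩ := H90.RF.exists_aY (E := E) (X := X) (f := f)
      ((H90.RF.real_iff re hκ).2 ⟨⟨n, hn⟩, fun c hc => Subtype.ext (hf c hc).2.symm⟩) fun c hc => (hf c hc).1
    exact ⟨y, hy, fun u hu => by rw [e u hu, (hf u hu).2]⟩
  refine ⟨E, hE, H9.isRealizable_of re S hS, fun g => ⟨fun ⟨α, hα, au, e⟩ => ?_, fun ⟨n, hn, h⟩ => ?_⟩,
    fun ⟨n, hn, h, u', hu', e⟩ => ?_⟩
  · obtain ⟨n, hn⟩ := (H90.RF.real_iff re hκ).1 (H90.RF.mor_aY hα)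
    exact ⟨n, n.2, fun u hu => ⟨α u, au.mem u hu, (congrArg Subtype.val (hn u hu)).symm, e u hu⟩⟩
  · obtain ⟨y, hy, e⟩ := ex (sQ T9) n hn fun u hu => (h u hu).imp fun _ k => ⟨k.1, k.2.1⟩
    refine ⟨y, hy, ?_, fun u hu => ?_⟩
    · obtain ⟨α, -, rfl⟩ := hy
      exact H90.RF.au_af α
    · obtain ⟨u', -, k, l⟩ := h u hu
      rw [hι ((e u hu).symm.trans k), l]
  · obtain ⟨y, hy, k⟩ := ex (sA T9) n hn h
    refine ⟨y, hy, fun p => hu' ?_⟩
    rw [← hι ((k zz (by exact rfl)).symm.trans e)]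
    exact p.1 _ zz_mem

theorem card_vv : Nat.card (H77.St1 vv) = 42305421312000 := by
  obtain ⟨g, hg⟩ := exists_smul_U (v := vv) (nm_vecOf (by decide +kernel))
  rw [← card_co2, ← hg]
  exact (Nat.card_congr (conjEquiv g (conj_mem_St1 g vU)).toEquiv).symm

theorem jobCard : JobCard := by
  have h1 : ¬ 3 ^ 7 ∣ Nat.card (H77.St1 vv) := by rw [card_vv]; norm_num
  refine ⟨h1, fun h => h1 ?_⟩
  have i2 : (H77.St1 vv).relIndex (Sw vv vw) ∣ 2 := by
    rw [relIndex_dvd_two_iff]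
    by_cases k : ∃ a : Co0, a • vv = vw ∧ a • vw = vv
    · obtain ⟨a, p, q⟩ := k
      refine ⟨a, .inr ⟨p, q⟩, fun b hb => ?_⟩
      rcases hb with ⟨r, -⟩ | ⟨-, s⟩
      · exact .inr r
      · exact .inl (mem_St1.2 (by rw [mul_smul, p, s]))
    · exact ⟨1, one_mem _, fun b hb => .inr (hb.elim And.left fun r => (k ⟨b, r⟩).elim)⟩
  have e := ((H77.St1 vv).subgroupOf (Sw vv vw)).card_mul_index
  have d : Nat.card ((H77.St1 vv).subgroupOf (Sw vv vw)) ∣ Nat.card (H77.St1 vv) := by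
    rw [← inf_subgroupOf_right, Nat.card_congr (subgroupOfEquivOfLe inf_le_right).toEquiv]
    exact card_dvd_of_le inf_le_left
  rw [← e] at h
  exact ((by norm_num : Nat.Coprime (3 ^ 7) 2).dvd_of_dvd_mul_right
    (h.trans (mul_dvd_mul_left _ i2))).trans d

end H41.Q3
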