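/- U4 tower (row S5210), chapter q = 3: slots St, DA, DD. -/
import Cfsg.Agent.H90.Q3Spec

set_option autoImplicit false
set_option linter.unusedSectionVars false
set_option linter.unusedSimpArgs false
set_option linter.unusedVariables false

open Subgroup H28.U4 Cfsg H90.Q3

namespace H41.Q3

theorem ro_a0 : Ro a0 := by decide +kernel
theorem ro_a1 : Ro a1 := by decide +kernel
theorem ro_ee : Ro ee := by decide +kernel

theorem pl_Jp {y : V} (h : Ro y) (k : pL y) : PL (Jp y) := fun w hw => by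
  rw [h.apply]
  unfold pL at k
  ext <;> simp [Jf, hw, k]

theorem ub_cube : (ub (1 : F9)) ^ 3 = 1 := Equiv.ext fun w => by
  simp only [pow_succ, pow_zero, one_mul, Equiv.Perm.mul_apply, Equiv.Perm.one_apply, ub_apply]
  revert w; decide +kernel

theorem ub_ne : ub (1 : F9) ≠ 1 := fun h => by
  have := Equiv.congr_fun h (bs 0)
  rw [ub_apply, Equiv.Perm.one_apply] at this
  revert this; decide +kernel

theorem ub_zero : ub (0 : F9) = 1 := Equiv.ext fun w => by simp [ub_apply]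

theorem mo_mem {H : Subgroup (Equiv.Perm W)} (h : Jp a0 ∈ H) : mo ∈ H := ro_a0.sq ▸ mul_mem h h

theorem pm_mem {H : Subgroup (Equiv.Perm W)} (h : Jp a0 ∈ H) {k : Equiv.Perm W} (e : k = 1 ∨ k = mo) : k ∈ H := by
  rcases e with rfl | rfl
  exacts [one_mem _, mo_mem h]

theorem ad_mul {g h : Equiv.Perm W} (a : Ad g) (b : Ad h) : Ad ⇑(g * h) := fun w w' => by
  simp only [Equiv.Perm.mul_apply]; rw [b, a]

theorem ad_inv {g : Equiv.Perm W} (a : Ad g) : Ad ⇑g⁻¹ := fun w w' => g.injective (by rw [a]; simp)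

/-- the conjugate of `ub 1` -/
theorem conj_ub (cj : CJ) {G : Subgroup (Equiv.Perm W)} (hG : Hy G) {g : Equiv.Perm W} (hg : g ∈ G) :
    ∃ y0 y1, Rt G y0 ∧ Rt G y1 ∧ dot y1 y0 = 1 ∧ y1 ≠ ng y0 ∧ g * ub 1 * g⁻¹ = Jp y1 * Jp y0 := by
  obtain ⟨y0, r0, c0⟩ := cj G hG g hg a0 ⟨ro_a0, hG.r0⟩
  obtain ⟨y1, r1, c1⟩ := cj G hG g hg (ng a1) (Rt.ng ⟨ro_a1, hG.r1⟩)
  refine ⟨y0, y1, r0, r1, ?_, fun e => ?_, ?_⟩
  · rw [Cn.dot (hG.add g hg) ro_a1.ng r1.1 ro_a0 r0.1 c1 c0]; decide +kernel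
  · have := Cn.uniq ro_a1.ng ro_a0.ng (e ▸ c1).inv (Cn.ng (hG.add g hg) ro_a0.ne r0.1.ne c0).inv
    revert this; decide +kernel
  · rw [ub_eq, ← c0.conj, ← c1.conj]; group

theorem fix_ub {g : Equiv.Perm W} {w : W} (hw : w.1 = 0) :
    (g * ub 1 * g⁻¹ : Equiv.Perm W) (g w) = g w := by
  simp only [Equiv.Perm.mul_apply, Equiv.Perm.coe_inv, Equiv.symm_apply_apply, ub_apply, hw, mul_zero, add_zero]
  rw [← hw]

theorem fixF (a : F9) (h : T9.σ a = a) : a = 0 ∨ a = 1 ∨ a = -1 := by revert a; decide +kernel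

theorem nb_eq : (nb : Equiv.Perm W) = Jp a0 * Jp c3' :=
  Equiv.ext (Ad.ext (fun w w' => by simp only [nb_apply, Prod.mk_add_mk, Prod.fst_add, Prod.snd_add, neg_add])
    (ad_mul (ad_Jp _) (ad_Jp _)) fun i => by
    rw [Equiv.Perm.mul_apply, Jp_apply (by decide), Jp_apply (by decide), nb_apply]; revert i; decide +kernel)

theorem om_dec : ∀ y0 : V, Ro y0 → pD32 y0 → ∀ y1 : V, Ro y1 → pD32 y1 → dot y1 y0 = 1 → y1 ≠ ng y0 →
    (∀ u : W, Jf y1 (Jf y0 u) = u → u.1 = 0) ∨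
      ∃ b : ZMod 3, ∀ u : W, Jf y1 (Jf y0 u) = u → u.2 = (⟨b, 0⟩ : F9) * u.1 := by
  decide +kernel

theorem jobSt : JobSt := by
  intro cj G hG
  refine ⟨fun ⟨g, hg, hp⟩ => ?_, fun hb hd => ⟨?_, fun s hs' => ?_, fun g hg => ?_⟩⟩
  · by_contra hn
    push Not at hn
    obtain ⟨y0, y1, r0, r1, -, -, e⟩ := conj_ub cj hG hg
    obtain ⟨b, -, hb⟩ := hG.pel _ (e ▸ mul_mem r1.2 r0.2 : g * ub 1 * g⁻¹ ∈ G)
      (by rw [e]; exact fun w hw => pl_Jp r1.1 (hn _ r1) _ (pl_Jp r0.1 (hn _ r0) w hw))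
      (by rw [conj_pow, ub_cube]; group)
    refine hp fun w hw => ?_
    have f := fix_ub (g := g) hw
    rw [hb, ub_apply] at f
    have f2 : b * (g w).1 = 0 := by simpa using congrArg Prod.snd f
    refine (mul_eq_zero.1 f2).resolve_left fun b0 => ub_ne ?_
    rw [b0, ub_zero] at hb
    simpa [mul_inv_eq_one] using hb
  · have : c3' = ng (rf a1 (rf a0 b2)) := by decide +kernel
    rw [nb_eq, this]
    exact mul_mem hG.r0 (Rt.ng (Rt.rf ⟨ro_a1, hG.r1⟩ (Rt.rf ⟨ro_a0, hG.r0⟩ hb))).2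
  · refine pm_mem hG.r0 ?_
    rcases fixF _ hs' with h | h | h
    · exact absurd h s.ne_zero
    · exact .inl (Equiv.ext fun w => by simp [hs_apply, h])
    · exact .inr (Equiv.ext fun w => by rw [hs_apply, h, mo_apply]; ext1 <;> simp)
  · obtain ⟨y0, y1, r0, r1, d, n, e⟩ := conj_ub cj hG hg
    have f : ∀ w : W, w.1 = 0 → Jf y1 (Jf y0 (g w)) = g w := fun w hw => by
      rw [← r0.1.apply, ← r1.1.apply, ← Equiv.Perm.mul_apply, ← e, fix_ub hw]
    rcases om_dec y0 r0.1 (hd _ r0) y1 r1.1 (hd _ r1) d n with h | ⟨b, h⟩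
    · exact .inl fun w hw => h _ (f w hw)
    · exact .inr ⟨⟨b, 0⟩, by ext <;> simp, fun w hw => h _ (f w hw)⟩

/-- the images of a basis -/
theorem ex_gm (cj : CJ) {G : Subgroup (Equiv.Perm W)} (hG : Hy G) {g : Equiv.Perm W} (hg : g ∈ G)
    {B : Fin 4 → V} (hB : ∀ i, Rt G (B i)) (hne : ∀ i j, i ≠ j → B i ≠ B j ∧ B i ≠ ng (B j)) :
    ∃ y : Fin 4 → V, (∀ i, Rt G (y i)) ∧ (∀ i, Cn g (B i) (y i)) ∧ Gm B y := by
  choose y hy using fun i => cj G hG g hg (B i) (hB i)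
  refine ⟨y, fun i => (hy i).1, fun i => (hy i).2, fun i j => ⟨?_, fun hij => ⟨fun e => ?_, fun e => ?_⟩⟩⟩
  · exact Cn.dot (hG.add g hg) (hB i).1 (hy i).1.1 (hB j).1 (hy j).1.1 (hy i).2 (hy j).2
  · exact (hne i j hij).1 (Cn.uniq (hB i).1 (hB j).1 (e ▸ (hy i).2).inv (hy j).2.inv)
  · exact (hne i j hij).2 (Cn.uniq (hB i).1 (hB j).1.ng (e ▸ (hy i).2).inv
      (Cn.ng (hG.add g hg) (hB j).1.ne (hy j).1.1.ne (hy j).2).inv)

theorem jobDA : JobDA := by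
  intro cj sch na G P hG hP hE
  have hle : GG P ≤ G := GG_le fun x a b => ((hE x).2 ⟨a, b⟩).2
  have h0 : Jp a0 ∈ GG P := Jp_mem_GG ro_a0 ((hE a0).1 ⟨ro_a0, hG.r0⟩).2
  refine le_antisymm (fun g hg => ?_) hle
  have hB : ∀ i, Rt G (bA i) := fun i => (hE _).2 (by
    rcases hP with rfl | rfl | rfl <;> revert i <;> decide +kernel)
  obtain ⟨y, ry, cy, gm⟩ := ex_gm cj hG hg hB (by decide +kernel)
  obtain ⟨l, hl, hs⟩ := na P hP y (fun i => (hE _).1 (ry i)) gm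
  have hw : wd l ∈ GG P := wd_mem fun a ha => Jp_mem_GG (hl a ha).1 (hl a ha).2
  have cw : ∀ i, Cn (wd l * g) (bA i) (sh l (y i)) := fun i =>
    (cn_wd (fun a ha => (hl a ha).1.ne) (ry i).1.ne).mul (cy i)
  have aw := ad_mul (ad_wd l) (hG.add g hg)
  rcases hs with hs | hs
  · exact (Subgroup.mul_mem_cancel_left _ hw).1 (pm_mem h0 (sch _ aw (.inl fun i => hs i ▸ cw i)))
  · have k : ∀ i, rf ee (ng (bA i)) = bA i := by decide +kernel
    have e := sch (Jp ee * (wd l * g)) (ad_mul (ad_Jp _) aw) (.inl fun i => by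
      have := (cn_Jp ro_ee.ne (hB i).1.ng.ne).mul (hs i ▸ cw i)
      rwa [k] at this)
    have he : Jp ee ∈ G := (Subgroup.mul_mem_cancel_right _ (mul_mem (hle hw) hg)).1 (pm_mem hG.r0 e)
    have he' : Jp ee ∈ GG P := Jp_mem_GG ro_ee ((hE _).1 ⟨ro_ee, he⟩).2
    exact (Subgroup.mul_mem_cancel_left _ hw).1 ((Subgroup.mul_mem_cancel_left _ he').1 (pm_mem h0 e))

theorem wd_append (l l' : List V) : wd (l ++ l') = wd l * wd l' := by simp [wd]

theorem wd_E1 : wd [a3, a4] = E1 := by simp [wd, E1]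

theorem tl_zero {G : Subgroup (Equiv.Perm W)} (hG : Hy G) {m : Fin 3} (h : wd (tl m m) ∈ G) : m = 0 := by
  rw [← tg_eq] at h
  obtain ⟨b, -, hb⟩ := hG.pel _ h (fun w hw => hw) (Equiv.ext fun w => by
    simp only [pow_succ, pow_zero, one_mul, Equiv.Perm.mul_apply, Equiv.Perm.one_apply, tg_apply]
    clear h; revert m w; decide +kernel)
  have e0 := Equiv.congr_fun hb (bs 0)
  have e1 := Equiv.congr_fun hb (bs 1)
  rw [tg_apply, ub_apply] at e0 e1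
  clear h hb
  revert m b; decide +kernel

theorem tl_conj (m : Fin 3) :
    wd (tl (2 * m : Fin 3) (2 * m : Fin 3)) * E1 = wd (tl m m) * E1 * wd (tl (2 * m : Fin 3) (2 * m : Fin 3)) := by
  rw [← wd_E1, ← wd_append, ← wd_append, ← wd_append]
  refine Equiv.ext (Ad.ext (ad_wd _) (ad_wd _) fun i => ?_)
  rw [wd_apply (by revert m; decide +kernel), wd_apply (by revert m; decide +kernel)]
  revert m i; decide +kernel

/-- an element of a group with roots `D₄` -/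
theorem dd_dec (cj : CJ) (sch : SCH) (nd : JobND) {G : Subgroup (Equiv.Perm W)} (hG : Hy G) (hE : Eqv (Rt G) pD4)
    {g : Equiv.Perm W} (hg : g ∈ G) :
    g ∈ GG pD4 ∨ ∃ m : Fin 3, wd (tl m m) * E1 ∈ G ∧ ∀ H : Subgroup (Equiv.Perm W), GG pD4 ≤ H →
      wd (tl m m) * E1 ∈ H → g ∈ H := by
  have hle : GG pD4 ≤ G := GG_le fun x a b => ((hE x).2 ⟨a, b⟩).2
  have h0 : Jp a0 ∈ GG pD4 := Jp_mem_GG ro_a0 ((hE a0).1 ⟨ro_a0, hG.r0⟩).2
  have hB : ∀ i, Rt G (bD i) := fun i => (hE _).2 (by revert i; decide +kernel)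
  obtain ⟨y, ry, cy, gm⟩ := ex_gm cj hG hg hB (by decide +kernel)
  obtain ⟨l, hl, m, hs⟩ := nd y (fun i => (hE _).1 (ry i)) gm
  have hw : wd l ∈ GG pD4 := wd_mem fun a ha => Jp_mem_GG (hl a ha).1 (hl a ha).2
  have cw : ∀ i, Cn (wd l * g) (bD i) (sh l (y i)) := fun i =>
    (cn_wd (fun a ha => (hl a ha).1.ne) (ry i).1.ne).mul (cy i)
  have key : ∀ l' : List V, (∀ a ∈ l', dot a a ≠ 0) → (∀ i, sh l (y i) = sh l' (bD i)) →
      (wd l')⁻¹ * (wd l * g) ∈ GG pD4 := fun l' hl' e =>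
    pm_mem h0 (sch _ (ad_mul (ad_inv (ad_wd _)) (ad_mul (ad_wd l) (hG.add g hg)))
      (.inr fun i => (cn_wd hl' (hB i).1.ne).inv.mul (e i ▸ cw i)))
  have mG : ∀ x : Equiv.Perm W, x⁻¹ * (wd l * g) ∈ GG pD4 → x ∈ G := fun x hx =>
    inv_mem_iff.1 ((Subgroup.mul_mem_cancel_right _ (mul_mem (hle hw) hg)).1 (hle hx))
  rcases hs with hs | hs
  · have k := key _ (tl_ne m m) hs
    obtain rfl := tl_zero hG (mG _ k)
    have : wd (tl (0 : Fin 3) (0 : Fin 3)) = 1 := rfl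
    rw [this, inv_one, one_mul] at k
    exact .inl ((Subgroup.mul_mem_cancel_left _ hw).1 k)
  · have k := key _ (by clear hs; revert m; decide +kernel) hs
    rw [wd_append, wd_E1] at k
    exact .inr ⟨m, mG _ k, fun H hH hm => (Subgroup.mul_mem_cancel_left _ (hH hw)).1
      ((Subgroup.mul_mem_cancel_left _ (inv_mem hm)).1 (hH k))⟩

theorem jobDD : JobDD := by
  intro cj sch nd G hG hE
  have hle : GG pD4 ≤ G := GG_le fun x a b => ((hE x).2 ⟨a, b⟩).2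
  refine ⟨fun h1 => le_antisymm (fun g hg => ?_) (sup_le hle (zpowers_le.2 h1)),
    fun hn => le_antisymm (fun g hg => ?_) hle⟩
  · rcases dd_dec cj sch nd hG hE hg with h | ⟨m, hm, h⟩
    · exact (le_sup_left : GG pD4 ≤ GE) h
    · obtain rfl := tl_zero hG ((Subgroup.mul_mem_cancel_right _ h1).1 hm)
      refine h GE le_sup_left ?_
      have : wd (tl (0 : Fin 3) (0 : Fin 3)) = 1 := rfl
      rw [this, one_mul]
      exact (le_sup_right : zpowers E1 ≤ GE) (mem_zpowers _)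
  · rcases dd_dec cj sch nd hG hE hg with h | ⟨m, hm, -⟩
    · exact h
    · refine absurd (mem_cW.2 ?_) (hn (2 * m))
      rw [tl_conj, mul_inv_cancel_right]; exact hm

end H41.Q3
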