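import Cfsg.Agent.H37.Height
import Cfsg.Agent.H33.Ind
import Cfsg.Agent.H28.Degree
import Cfsg.Agent.H38.Push
import Cfsg.Agent.H41.RealBlock

/-! The sum of a character over the `p`-regular elements and the principal block. -/

set_option autoImplicit false
open Cfsg H28 H35
open scoped ComplexConjugate

namespace H41

variable {G : Type*} [Group G] [Fintype G] {p : ℕ}

/-- The sum of the values on the `p`-regular elements. -/
noncomputable def regS (p : ℕ) (χ : G → ℂ) : ℂ := ∑ g, if p ∣ orderOf g then 0 else χ g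

theorem regS_eq_rsum (χ : G → ℂ) : regS p χ = H37.rsum p (fun _ => 1) χ := by
  refine Finset.sum_congr rfl fun g _ => ?_
  rw [H37.rc_eq]
  split_ifs <;> simp

theorem regS_sum {ι : Type*} (s : Finset ι) (a : ι → ℂ) (χ : ι → G → ℂ) :
    regS p (∑ i ∈ s, a i • χ i) = ∑ i ∈ s, a i * regS p (χ i) := by
  simp only [regS_eq_rsum, ← H37.rsum_comm p _ (fun _ : G => (1 : ℂ))]
  simp only [H37.rsum_comm p (fun _ : G => (1 : ℂ)), H37.rsum_sum_left]

theorem regS_indFun (H : Subgroup G) [Fintype H] (η : H → ℂ) :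
    regS p (indFun H η) = H.index * regS p η := by
  have h1 := H33.sum_indFun_mul H η (H37.rc_isClassFunction p (isClassFunction_const (G := G) 1))
  have h2 : ∑ g, indFun H η g * H37.rc p (fun _ => 1) g = regS p (indFun H η) :=
    Finset.sum_congr rfl fun g _ => by rw [H37.rc_eq]; split_ifs <;> simp
  have h3 : ∑ h : H, η h * H37.rc p (fun _ : G => 1) h = regS p η :=
    Finset.sum_congr rfl fun g _ => by
      rw [H37.rc_eq, Subgroup.orderOf_coe]; split_ifs <;> simp
  rw [h2, h3, ← H.card_mul_index] at h1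
  have h4 : (Nat.card H : ℂ) ≠ 0 := H33.natCard_ne_zero H
  have h5 : (H.index : ℂ) ≠ 0 := Nat.cast_ne_zero.2 H.index_ne_zero_of_finite
  push_cast at h1
  field_simp at h1
  exact h1

theorem regS_comp {N : Type*} [Group N] [Fintype N] {ι : N →* G} (hι : Function.Injective ι)
    (hN : ∀ g : G, ¬ p ∣ orderOf g → g ∈ ι.range) (χ : G → ℂ) :
    regS p (fun n => χ (ι n)) = regS p χ := by
  classical
  refine Finset.sum_of_injOn ι hι.injOn (fun _ _ => Finset.mem_univ _) (fun g _ hg => ?_)
    fun n _ => by rw [orderOf_injective ι hι]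
  rw [if_pos]
  by_contra h
  obtain ⟨n, rfl⟩ := hN g h
  exact hg ⟨n, by simp, rfl⟩

variable {M : Ideal AlgInt} [M.IsMaximal]

theorem regS_mem_S {χ : G → ℂ} (h : IsGeneralizedCharacter G χ) : regS p χ ∈ S M := by
  refine sum_mem fun g _ => ?_
  split_ifs
  · exact zero_mem _
  · exact mem_S_of_isIntegral_int (h.isIntegral g)

theorem regS_ne_zero_iff (hM : IsPModular p M) {χ : IrrCharacter G} :
    regS p χ.1 ≠ 0 ↔ χ ∈ principalBlock M G := by
  have hB := H34.isPBlock_principalBlock (M := M) (G := G)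
  rw [regS_eq_rsum]
  refine ⟨H37.mem_of_rsum_ne_zero hM hB H34.one_mem_principalBlock, fun h h0 => ?_⟩
  have h2 := H37.not_P_of_height_zero hM hB H34.one_mem_principalBlock h
    (H37.blockHeight_of_not_dvd _ (by
      rw [H35.charDegree_one]
      exact hM.1.one_lt.ne' ∘ Nat.dvd_one.1))
  apply h2
  rw [h0, zero_div]
  exact P_zero

theorem not_P_regS_iff (hM : IsPModular p M) {χ : IrrCharacter G} :
    ¬ MemLocalIdeal M (regS p χ.1) ↔ χ ∈ principalBlock M G ∧ ¬ p ∣ charDegree χ.1 := by
  have hB := H34.isPBlock_principalBlock (M := M) (G := G)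
  have h1 := H37.height_zero_iff hM hB (χ := χ) H34.one_mem_principalBlock
  rw [div_one, H37.rsum_comm, ← regS_eq_rsum] at h1
  rw [← h1]
  refine and_congr_right fun h => ⟨fun h0 => ?_, H37.blockHeight_of_not_dvd _⟩
  have h2 := nu_add_blockDefect p h
  rw [H36.blockDefect_principalBlock hM.1, h0] at h2
  intro h3
  have := hM.1.factorization_pos_of_dvd (deg_ne_zero χ) h3
  omega

/-- A generalized character whose regular sum is a unit has a constituent of `p'`-degree in the
principal block. -/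
theorem exists_principal_of_not_P (hM : IsPModular p M) {θ : G → ℂ}
    (hθ : IsGeneralizedCharacter G θ) (h : ¬ MemLocalIdeal M (regS p θ)) :
    ∃ χ : IrrCharacter G, χ ∈ principalBlock M G ∧ ¬ p ∣ charDegree χ.1 ∧
      ¬ MemLocalIdeal M (classInner θ χ.1) := by
  obtain ⟨a, ha, hθ'⟩ := hθ.exists_int_coeffs
  rw [hθ', regS_sum] at h
  by_contra hn
  apply h
  refine P_sum _ _ fun χ _ => ?_
  by_cases h1 : MemLocalIdeal M (regS p χ.1)
  · exact P_mul_left (intCast_mem _ _) h1
  · refine P_mul_right ?_ (regS_mem_S χ.2.isGeneralizedCharacter)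
    by_contra h2
    exact hn ⟨χ, ((not_P_regS_iff hM).1 h1).1, ((not_P_regS_iff hM).1 h1).2, ha χ ▸ h2⟩

/-- Induction from a subgroup of `p'`-index. -/
theorem exists_principal_over (hM : IsPModular p M) {H : Subgroup G} [Fintype H]
    (hH : ¬ p ∣ H.index) {η : H → ℂ} (hη : IsGeneralizedCharacter H η)
    (h : ¬ MemLocalIdeal M (regS p η)) :
    ∃ χ : IrrCharacter G, χ ∈ principalBlock M G ∧ ¬ p ∣ charDegree χ.1 ∧
      ¬ MemLocalIdeal M (classInner (fun x : H => χ.1 x) η) := by
  obtain ⟨χ, h1, h2, h3⟩ := exists_principal_of_not_P hM hη.indFun (by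
    rw [regS_indFun]
    exact not_P_mul (natCast_mem _ _) (regS_mem_S hη) (fun h => hH ((P_natCast_iff hM).1 h)) h)
  refine ⟨χ, h1, h2, ?_⟩
  rwa [hη.indFun.classInner_comm χ.2.isGeneralizedCharacter,
    H33.classInner_indFun_right H η χ.2.isClassFunction] at h3

end H41
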