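/- Completeness and norms of the spin class functions. -/
import Cfsg.Agent.H2.SpSpec

set_option autoImplicit false

namespace H41.Sp
open Cfsg Equiv MvPolynomial H2.Sp H28 H40.Sn Finset
open scoped ComplexConjugate

theorem val_add (f g : Γ) (ρ : Multiset ℕ) : val (f + g) ρ = val f ρ + val g ρ := by
  simp only [H2.Sp.val, coeff_add, mul_add]

theorem val_smul (c : ℚ) (f : Γ) (ρ : Multiset ℕ) : val (c • f) ρ = c * val f ρ := by
  simp only [H2.Sp.val, coeff_smul, smul_eq_mul]; ring

theorem val_zero' (ρ : Multiset ℕ) : val 0 ρ = 0 := by simp [H2.Sp.val]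

section
variable {Ω G V : Type} [Fintype Ω] [DecidableEq Ω] [Group G] [AddCommGroup V] [Module ℂ V]
  (P : Pin Ω G V)

theorem Φ_add (f g : Γ) : P.Φ (f + g) = P.Φ f + P.Φ g := by
  funext x; simp only [Pin.Φ, val_add, Pi.add_apply]; push_cast; ring

theorem Φ_smul (c : ℚ) (f : Γ) : P.Φ (c • f) = (c : ℂ) • P.Φ f := by
  funext x; simp only [Pin.Φ, val_smul, Pi.smul_apply, smul_eq_mul]; push_cast; ring

theorem Φ_zero : P.Φ 0 = 0 := by
  funext x; simp [Pin.Φ, val_zero']

theorem char_one [FiniteDimensional ℂ V] : P.ρ.character 1 = 2 ^ Fintype.card Ω := by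
  rw [Representation.char_one, P.dim]; push_cast; rfl

theorem char_z [FiniteDimensional ℂ V] : P.ρ.character P.z = -2 ^ Fintype.card Ω := by
  rw [← char_one P, Representation.character, Representation.character, P.ρz, map_one, map_neg]

theorem Φ_prod (hV : Vq) {g : G} (h2 : ¬ OddM (P.π g).partition.parts → P.ρ.character g = 0)
    {m : ℕ} (α : Fin m → ℕ) : P.Φ (∏ j, q (α j)) g =
      P.ρ.character g * cf α (pm (Fin m) ℂ (P.π g).partition.parts) := by
  by_cases h : OddM (P.π g).partition.parts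
  · rw [Pin.Φ, hV m α _ h, ← map_pm (algebraMap ℚ ℂ), cf_map]; rfl
  · rw [Pin.Φ, h2 h, zero_mul, zero_mul]

end

theorem jobComp (hS : Span) (hV : Vq) (_h1 : T1) (h2 : T2) : Comp := by
  intro Ω G V _ _ _ _ _ _ _ P ξ hξ
  classical
  by_contra! h
  have key : ∀ f ∈ Submodule.span ℚ {f | ∃ l, Good l ∧ f = Q l},
      classInner ξ.1 (P.Φ f) = 0 := by
    intro f hf
    induction hf using Submodule.span_induction with
    | mem f hf => obtain ⟨l, hl, rfl⟩ := hf; exact h l hl
    | zero => rw [Φ_zero, classInner_zero_right]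
    | add f g _ _ a b => rw [Φ_add, classInner_add_right, a, b, add_zero]
    | smul c f _ a => rw [Φ_smul, classInner_smul_right, a, mul_zero]
  let f₀ := Fintype.equivFin Ω
  have h3 := card_mul_classInner ξ.1 (P.Φ (∏ j, q (cont f₀ j)))
  rw [key _ (hS _ (cont f₀)), mul_zero, ← sum_subset (subset_univ {1, P.z}), sum_pair P.ne.symm,
    Φ_prod P hV (h2 P 1), Φ_prod P hV (h2 P P.z), (P.ker _).2 (.inl rfl), (P.ker _).2 (.inr rfl),
    char_one, char_z, cf_pm_parts] at h3
  · have h4 : (#{f : Ω → Fin (Fintype.card Ω) | f ∘ (1 : Perm Ω) = f ∧ cont f = cont f₀} : ℂ) ≠ 0 :=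
      Nat.cast_ne_zero.2 (card_ne_zero_of_mem (a := f₀) (by simp))
    rw [neg_mul, map_neg, mul_neg, ← sub_eq_add_neg, ← sub_mul, eq_comm, mul_eq_zero,
      map_eq_zero, mul_eq_zero, sub_eq_zero] at h3
    rcases h3 with h3 | h3 | h3
    · exact hξ h3.symm
    · exact pow_ne_zero _ two_ne_zero h3
    · exact h4 h3
  · intro g _ hg
    rw [Φ_prod P hV (h2 P g), cf_pm_parts, card_eq_zero.2, Nat.cast_zero, mul_zero, map_zero,
      mul_zero]
    refine eq_empty_iff_forall_notMem.2 fun f hf => hg ?_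
    obtain ⟨h4, h5⟩ := (mem_filter.1 hf).2
    obtain ⟨τ, rfl⟩ := exists_comp_eq h5
    have : P.π g = 1 := Equiv.ext fun x => τ.injective (f₀.injective (congrFun h4 x))
    simpa using (P.ker g).1 this

theorem jobNrm (hG : GSum) (hN : Norm) (hW : Wt) (h1 : T1) (h2 : T2) : Nrm := by
  intro Ω G V _ _ _ _ _ _ _ P l hl h0
  classical
  obtain ⟨g₀, hg₀⟩ := Function.ne_iff.1 h0
  have a1 : OddM (P.π g₀).partition.parts := by
    by_contra a
    exact hg₀ (by rw [Pin.Φ, h2 P g₀ a, zero_mul]; rfl)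
  have a2 : l.sum = (Fintype.card Ω : ℕ) := by
    rw [hW l _ a1 fun a => hg₀ (by rw [Pin.Φ, a, Rat.cast_zero, mul_zero]; rfl),
      (P.π g₀).partition.parts_sum]
  have a3 := hG Ω (Q l) (Q l) fun ρ b c => by
    have := hW l ρ b c
    omega
  let Ψ : Perm Ω → ℂ := fun σ => if OddM σ.partition.parts then 2 ^ Fintype.card Ω *
    ((2 ^ σ.partition.parts.card * val (Q l) σ.partition.parts * val (Q l) σ.partition.parts : ℚ)
      : ℂ) else 0
  have a4 : (P.Φ (Q l) * fun g => conj (P.Φ (Q l) g)) = fun g => Ψ (P.π g) := by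
    funext g
    simp only [Pi.mul_apply, Pin.Φ, Ψ, map_mul, map_ratCast]
    split_ifs with b
    · have c1 := h1 P g b
      have c2 : P.ρ.character g * conj (P.ρ.character g) =
          2 ^ (Fintype.card Ω + (P.π g).partition.parts.card) := by
        rw [Complex.mul_conj, Complex.normSq_eq_norm_sq, ← norm_pow, c1, norm_pow]
        simp
      rw [pow_add] at c2
      push_cast
      linear_combination ((val (Q l) (P.π g).partition.parts : ℚ) : ℂ) ^ 2 * c2
    · rw [h2 P g b]; simp
  rw [classInner_eq_mul_one, a4, classInner_comp_surjective P.π P.surj Ψ (fun _ => 1),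
    classInner_one_right, ← sum_filter, ← mul_sum, ← Rat.cast_sum, a3, hN l hl, Nat.card_perm,
    Nat.card_eq_fintype_card, pow_add]
  have : ((Fintype.card Ω).factorial : ℂ) ≠ 0 := Nat.cast_ne_zero.2 (Nat.factorial_ne_zero _)
  push_cast
  field_simp

end H41.Sp
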