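/- The spin class functions are multiples of irreducible characters on the even part. -/
import Cfsg.Agent.H41.SpComp
import Cfsg.Agent.H32.DegreeRatio

set_option autoImplicit false

namespace H41.Sp
open Cfsg Equiv MvPolynomial H2.Sp H28 H40.Sn Finset
open scoped ComplexConjugate

theorem prod_gq {m : ℕ} (α : Fin m → ℕ) :
    ∏ j, gq (α j) = ((2 : ℚ) ^ #{j | α j = 0}) • ∏ j, q (α j) := by
  have : ∀ j, gq (α j) = (if α j = 0 then (2 : ℚ) else 1) • q (α j) := fun j => by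
    rw [gq]
    split_ifs with h
    · rw [h, q_zero, smul_eq_C_mul, mul_one]; rfl
    · rw [one_smul]
  simp only [this, prod_smul, prod_ite, prod_const, one_pow, mul_one]

section
variable {Ω G V : Type} [Fintype Ω] [DecidableEq Ω] [Group G] [AddCommGroup V] [Module ℂ V]
  (P : Pin Ω G V)

theorem gen_aux {K : Type} [Group K] (ι : K → G) (c : ℕ) (hV : Vq)
    (h2 : ∀ g, ¬ OddM (P.π g).partition.parts → P.ρ.character g = 0) {m : ℕ}
    (h : ∀ α : Fin m → ℕ, ∃ ψ, IsCharacter K ψ ∧ ∀ g, P.ρ.character (ι g) *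
      cf α (pm (Fin m) ℂ (P.π (ι g)).partition.parts) = 2 ^ ((c + #{j | α j ≠ 0}) / 2) * ψ g)
    {f : Γ} (hf : f ∈ Submodule.span ℤ {f | ∃ α : Fin m → ℕ, f = ∏ j, gq (α j)}) :
    ∃ ζ, IsGeneralizedCharacter K ζ ∧ ∀ g, P.Φ f (ι g) = 2 ^ ((c + m) / 2) * ζ g := by
  induction hf using Submodule.span_induction with
  | mem f hf =>
    obtain ⟨α, rfl⟩ := hf
    obtain ⟨ψ, h3, h4⟩ := h α
    have h5 := card_filter_add_card_filter_not (s := univ) fun j => α j = 0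
    rw [card_univ, Fintype.card_fin] at h5
    obtain ⟨d, hd⟩ : ∃ d, #{j | α j = 0} + (c + #{j | α j ≠ 0}) / 2 = (c + m) / 2 + d :=
      Nat.exists_eq_add_of_le (by simp only [ne_eq]; omega)
    refine ⟨((2 ^ d : ℕ) : ℂ) • ψ, (h3.natCast_smul _).isGeneralizedCharacter, fun g => ?_⟩
    rw [prod_gq, Φ_smul, Pi.smul_apply, Φ_prod P hV (h2 _), h4, Pi.smul_apply]
    push_cast
    rw [smul_eq_mul, smul_eq_mul, ← mul_assoc, ← mul_assoc, ← pow_add, ← pow_add, hd]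
  | zero => exact ⟨0, isGeneralizedCharacter_zero, fun g => by simp [Φ_zero]⟩
  | add f g _ _ a b =>
    obtain ⟨ζ, a1, a2⟩ := a
    obtain ⟨ζ', b1, b2⟩ := b
    exact ⟨ζ + ζ', a1.add b1, fun x => by rw [Φ_add, Pi.add_apply, a2, b2, Pi.add_apply, mul_add]⟩
  | smul k f _ a =>
    obtain ⟨ζ, a1, a2⟩ := a
    refine ⟨(k : ℂ) • ζ, a1.intCast_smul k, fun x => ?_⟩
    rw [← Int.cast_smul_eq_zsmul ℚ, Φ_smul, Pi.smul_apply, a2, Pi.smul_apply]
    simp only [smul_eq_mul, Rat.cast_intCast]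
    ring

theorem sign_of_oddM {σ : Perm Ω} (h : OddM σ.partition.parts) : Perm.sign σ = 1 := by
  rw [Perm.sign_of_cycleType']
  refine Multiset.prod_eq_one fun x hx => ?_
  obtain ⟨r, hr, rfl⟩ := Multiset.mem_map.1 hx
  rw [(h r (by rw [Perm.parts_partition]; exact Multiset.mem_add.2 (.inl hr))).neg_one_pow, neg_neg]

theorem Φ_class [FiniteDimensional ℂ V] (f : Γ) : IsClassFunction G (P.Φ f) := fun g h => by
  rw [Pin.Φ, Pin.Φ, (isCharacter_rep P.ρ).isClassFunction g h,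
    parts_eq_iff.2 (isConj_iff.2 ⟨P.π h, by simp⟩ : IsConj (P.π g) (P.π (h * g * h⁻¹)))]

end

theorem jobGen (hI : Intg) (hV : Vq) (hT : Theta) (h2 : T2) : Gen := by
  intro Ω G V _ _ _ _ _ _ _ P l hl
  refine ⟨gen_aux P id _ hV (h2 P) (fun α => (hT P _ α).1) (hI l hl), ?_⟩
  rw [add_right_comm]
  exact gen_aux P Subtype.val _ hV (h2 P) (fun α => add_right_comm _ 1 _ ▸ (hT P _ α).2) (hI l hl)

theorem res_inner {G : Type*} [Group G] [Fintype G] {N : Subgroup G} [Fintype N] (φ : G → ℂ)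
    {ψ : G → ℂ} (h : ∀ g ∉ N, ψ g = 0) :
    classInner (fun n : N => φ n) (fun n : N => ψ n) = N.index * classInner φ ψ := by
  classical
  apply mul_left_cancel₀ (card_ne_zero' N)
  rw [← mul_assoc, ← Nat.cast_mul, N.card_mul_index, card_mul_classInner, card_mul_classInner,
    ← sum_subtype (univ.filter (· ∈ N)) (by simp) fun n => φ n * conj (ψ n)]
  exact sum_subset (filter_subset _ _) fun g _ hg => by rw [h g (by simpa using hg)]; simp

theorem sgn_irr {K : Type*} [Group K] [Fintype K] {ζ F : K → ℂ} (h : IsGeneralizedCharacter K ζ)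
    {k : ℕ} (h1 : ∀ g, F g = 2 ^ k * ζ g) (h2 : classInner F F = 2 ^ (2 * k)) :
    ∃ (θ : K → ℂ) (ε : ℤ), ε * ε = 1 ∧ IsIrrCharacter K θ ∧ F = ((ε : ℂ) * 2 ^ k) • θ := by
  have h3 : F = (2 ^ k : ℂ) • ζ := funext h1
  rw [h3, classInner_smul_left, classInner_smul_right, map_pow, map_ofNat, ← mul_assoc, ← pow_add,
    ← two_mul, mul_eq_left₀ (pow_ne_zero _ two_ne_zero)] at h2
  rcases h.eq_irr_or_neg_of_norm_one h2 with a | a
  · exact ⟨ζ, 1, rfl, a, by simpa using h3⟩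
  · exact ⟨-ζ, -1, rfl, a, by simpa using h3⟩

theorem jobIdn (hC : Comp) (hN : Nrm) (hG : Gen) (h2 : T2) : Idn := by
  intro Ω G V _ _ _ _ _ _ _ P hn ξ hξ
  classical
  obtain ⟨l, hl, h3⟩ := hC P ξ hξ
  have h4 := hN P l hl fun a => h3 (by rw [a, classInner_zero_right])
  obtain ⟨⟨ζ, a1, a2⟩, ζ', b1, b2⟩ := hG P l hl.2
  refine ⟨l, hl, ?_⟩
  obtain ⟨k, hk | hk⟩ := Nat.even_or_odd' (Fintype.card Ω + l.length)
  · rw [hk] at h4 a2
    rw [Nat.mul_div_cancel_left _ two_pos] at a2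
    obtain ⟨θ, ε, c1, c2, c3⟩ := sgn_irr a1 a2 h4
    rw [c3, classInner_smul_right] at h3
    refine ⟨k, ε, c1, fun g _ => ?_⟩
    have c4 : (ε : ℂ) * ε = 1 := by exact_mod_cast c1
    rw [c3, ← ξ.2.eq_of_classInner_ne_zero c2 (right_ne_zero_of_mul h3), Pi.smul_apply, smul_eq_mul]
    linear_combination (-2 ^ k * ξ.1 g) * c4
  have := Fintype.one_lt_card_iff_nontrivial.1 hn
  have : P.Ev.Normal := Subgroup.normal_comap _
  have d1 : P.Ev.index = 2 :=
    (Subgroup.index_comap_of_surjective _ P.surj).trans alternatingGroup.index_eq_two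
  have d2 : ∀ g ∉ P.Ev, P.Φ (Q l) g = 0 := fun g hg => by
    rw [Pin.Φ, h2 P g fun a => hg (Perm.mem_alternatingGroup.2 (sign_of_oddM a)), zero_mul]
  rw [hk] at h4 b2
  rw [show (2 * k + 1 + 1) / 2 = k + 1 by omega] at b2
  obtain ⟨θ, ε, c1, c2, c3⟩ := sgn_irr b1 b2 (by
    rw [res_inner _ d2, h4, d1]; push_cast; ring)
  have c4 : (ε : ℂ) * ε = 1 := by exact_mod_cast c1
  have c5 : (ε : ℂ) * 2 ^ (k + 1) ≠ 0 :=
    mul_ne_zero (left_ne_zero_of_mul_eq_one c4) (pow_ne_zero _ two_ne_zero)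
  have d3 : H32.inertia θ = ⊤ := (Subgroup.eq_top_iff' _).2 fun g =>
    H32.mem_inertia_iff.2 fun n => mul_left_cancel₀ c5 (((congrFun c3 _).symm.trans
      (Φ_class P _ n g)).trans (congrFun c3 n))
  have d4 := res_inner ξ.1 d2
  rw [c3, classInner_smul_right, d1] at d4
  have d5 : classInner (fun n : P.Ev => ξ.1 n) θ ≠ 0 := fun a => by
    rw [a, mul_zero, eq_comm] at d4
    exact mul_ne_zero (by simp) h3 d4
  obtain ⟨e, he⟩ := (ξ.2.isCharacter.restrict P.Ev).classInner_nat c2.isCharacter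
  have d6 := H32.ramification_dvd_index_of_invariant ξ.2 c2 d3 he fun a => d5 (by rw [he, a]; simp)
  have d7 := H32.clifford_of_invariant ξ.2 c2 d3 d5
  rw [he] at d7
  have d8 : ∀ g (hg : Perm.sign (P.π g) = 1), ∃ x, ξ.1 g = e * x ∧
      P.Φ (Q l) g = ε * 2 ^ (k + 1) * x := fun g hg =>
    ⟨θ ⟨g, Perm.mem_alternatingGroup.2 hg⟩, congrFun d7 ⟨g, _⟩, congrFun c3 ⟨g, _⟩⟩
  rw [d1, Nat.dvd_prime Nat.prime_two] at d6
  rcases d6 with rfl | rfl
  · refine ⟨k + 1, ε, c1, fun g hg => ?_⟩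
    obtain ⟨x, e1, e2⟩ := d8 g hg
    rw [e1, e2]; push_cast
    linear_combination (-2 ^ (k + 1) * x) * c4
  · refine ⟨k, ε, c1, fun g hg => ?_⟩
    obtain ⟨x, e1, e2⟩ := d8 g hg
    rw [e1, e2]; push_cast
    linear_combination (-2 ^ (k + 1) * x) * c4

end H41.Sp
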