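/- VC tower, slot ARA: arithmetic. -/
import Cfsg.Agent.H91.VCSpec

set_option autoImplicit false

namespace H41.VC

theorem step {e : ℕ} (h : 10 ≤ e) : (e + 1) ^ 8 ≤ 3 * e ^ 8 := by
  have h1 : 10 * (e + 1) ≤ 11 * e := by omega
  have h2 := Nat.pow_le_pow_left h1 8
  rw [mul_pow, mul_pow] at h2
  omega

theorem ind {a c d k e q : ℕ} (ha : 3 ≤ a ∧ 10 ≤ k ∧ d ≤ k ∧ c * k ^ 8 ≤ a ^ (k - d)) (he : k ≤ e)
    (hq : a ≤ q) : c * e ^ 8 ≤ q ^ (e - d) := by
  refine le_trans ?_ (Nat.pow_le_pow_left hq _)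
  induction e, he using Nat.le_induction with
  | base => exact ha.2.2.2
  | succ e he ih =>
    rw [show e + 1 - d = e - d + 1 by omega, pow_succ a]
    calc _ ≤ c * (3 * e ^ 8) := Nat.mul_le_mul_left _ (step (ha.2.1.trans he))
      _ = c * e ^ 8 * 3 := by ring
      _ ≤ _ := Nat.mul_le_mul ih ha.1

set_option synthInstance.maxSize 2000 in
theorem tab : ∀ q < 11, ∀ e < 27, 3 ≤ q → 10 ≤ e → e ≠ 16 →
    (∀ r ∈ [2, 3, 5, 7, 11, 13, 17, 19, 23], r ∣ e → r ∣ q - 1) →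
    (q = 7 ∧ 12 ≤ e) ∨ (4 ≤ q ∧ 25 ≤ e) := by decide +kernel

theorem jobARA : H91.VC.JobARA := by
  intro q e n g hq hn hr hg
  rw [← pow_two, ← pow_mul, show 2 * 4 = 8 from rfl] at hg
  have q3 : 2 ≤ e → 3 ≤ q := fun h => by
    by_contra k
    have := hr _ (Nat.minFac_prime (by omega : e ≠ 1)) (Nat.minFac_dvd e)
    rw [show q - 1 = 1 by omega, Nat.dvd_one, Nat.minFac_eq_one_iff] at this
    omega
  have g1 : 0 < e → g + e ^ 8 ≤ q ^ 2 * e ^ 8 := fun _ => by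
    obtain ⟨m, rfl⟩ : ∃ m, q = m + 1 := ⟨q - 1, by omega⟩
    have := Nat.mul_le_mul_right (e ^ 8) (Nat.mul_le_mul_right m (Nat.totient_le m))
    rw [Nat.add_sub_cancel] at hg
    nlinarith [Nat.zero_le (m * e ^ 8)]
  have fin : ∀ c, 1 ≤ c → 2 ≤ e → c * e ^ 8 ≤ q ^ (e - 2) → 1 + c * g < q ^ n := fun c c1 e2 h => by
    have h1 : q ^ 2 * q ^ (e - 2) ≤ q ^ n := by
      rw [← pow_add]; exact Nat.pow_le_pow_right (by omega) (by omega)
    have h2 := Nat.mul_le_mul_left (q ^ 2) h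
    have h3 := Nat.mul_le_mul_left c (g1 (by omega))
    have h4 : 2 ^ 8 ≤ e ^ 8 := Nat.pow_le_pow_left e2 8
    nlinarith
  refine ⟨fun h10 h16 => ?_, fun h => fin 4 (by omega) (by omega)
    (ind (a := 3) (k := 64) (by norm_num) h (q3 (by omega))), fun h r r2 => ?_⟩
  · have h3 := q3 (by omega)
    by_cases h11 : 11 ≤ q
    · exact fin 2 (by omega) (by omega) (ind (a := 11) (k := 10) (by norm_num) h10 h11)
    by_cases h27 : 27 ≤ e
    · exact fin 2 (by omega) (by omega) (ind (a := 3) (k := 27) (by norm_num) h27 h3)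
    rcases tab q (by omega) e (by omega) h3 h10 h16 (fun r hr' => hr r (by
      simp only [List.mem_cons, List.not_mem_nil, or_false] at hr'
      rcases hr' with rfl | rfl | rfl | rfl | rfl | rfl | rfl | rfl | rfl <;> norm_num))
      with ⟨rfl, h12⟩ | ⟨h4, h25⟩
    · have h1 := ind (a := 7) (c := 25) (d := 0) (k := 12) (by norm_num) h12 le_rfl
      have h2 : 7 ^ (e - 0) ≤ 7 ^ n := Nat.pow_le_pow_right (by omega) (by omega)
      have h4 : 2 ^ 8 ≤ e ^ 8 := Nat.pow_le_pow_left (by omega) 8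
      rw [show Nat.totient (7 - 1) = 2 by decide +kernel] at hg
      omega
    · exact fin 2 (by omega) (by omega) (ind (a := 4) (k := 25) (by norm_num) h25 h4)
  · have h1 : n / r ≤ n / 2 := Nat.div_le_div_left r2 (by omega)
    set b := (n + n / r) / 2 with hb
    have h2 := ind (a := 3) (c := 6 * 5 ^ 8) (d := 2) (k := 64) (e := n / 4) (by norm_num) (by omega)
      (q3 (by omega))
    have h3 : e ^ 8 ≤ (5 * (n / 4)) ^ 8 := Nat.pow_le_pow_left (by omega) 8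
    rw [mul_pow] at h3
    have h4 : q ^ b * (q ^ 2 * q ^ (n / 4 - 2)) ≤ q ^ n := by
      rw [← pow_add, ← pow_add]; exact Nat.pow_le_pow_right (by omega) (by omega)
    have h5 : 1 ≤ q ^ b := Nat.one_le_pow _ _ (by omega)
    have h6 : 2 ^ 8 ≤ e ^ 8 := Nat.pow_le_pow_left (by omega) 8
    have h7 : 6 * (g + e ^ 8) ≤ q ^ 2 * q ^ (n / 4 - 2) :=
      (Nat.mul_le_mul_left 6 (g1 (by omega))).trans (by
        rw [mul_left_comm]; exact Nat.mul_le_mul_left _ (by omega))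
    have h8 := Nat.mul_le_mul_left (q ^ b) h7
    nlinarith [Nat.mul_le_mul_right g h5, Nat.mul_le_mul_right (e ^ 8) h5]

end H41.VC
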